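import Cfsg.Agent.H4.Char3
import Mathlib.LinearAlgebra.Matrix.Kronecker

/-! Dade's extension theorem, part A: Schur representations of extraspecial 2-groups. -/

set_option autoImplicit false
set_option linter.unusedSectionVars false

namespace Cfsg.Agent.H15D

open Matrix

variable {E : Type*} [Group E]

/-- `E` is extraspecial (or of order two) with centre `{1, z}`. -/
structure XS (z : E) : Prop where
  ne : z ≠ 1
  sq : z * z = 1
  cen : ∀ x, z * x = x * z
  comm : ∀ x y : E, x * y = y * x ∨ x * y = z * (y * x)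
  nd : ∀ x, (∀ y, x * y = y * x) → x = 1 ∨ x = z

namespace XS

variable {z : E} (h : XS z)
include h

theorem fixz (φ : MulAut E) : φ z = z := by
  refine (h.nd (φ z) fun y => ?_).resolve_left fun e => h.ne (φ.injective (by rw [e, map_one]))
  obtain ⟨x, rfl⟩ := φ.surjective y
  rw [← map_mul, h.cen, map_mul]

theorem sq_mem (x : E) : x * x = 1 ∨ x * x = z := by
  refine h.nd _ fun y => ?_
  rcases h.comm x y with e | e
  · rw [mul_assoc, e, ← mul_assoc, e, mul_assoc]
  · calc x * x * y = x * (z * (y * x)) := by rw [mul_assoc, e]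
      _ = z * (x * y) * x := by rw [← mul_assoc, ← h.cen]; simp only [mul_assoc]
      _ = z * z * (y * (x * x)) := by rw [e]; simp only [mul_assoc]
      _ = _ := by rw [h.sq, one_mul]

theorem isPGroup : IsPGroup 2 E := fun x => ⟨2, by
  have : x ^ 2 ^ 2 = (x * x) * (x * x) := by simp [pow_succ, mul_assoc]
  rcases h.sq_mem x with e | e <;> rw [this, e]
  · exact one_mul 1
  · exact h.sq⟩

theorem sum2 [Fintype E] (f : E → ℂ) (hf : ∀ x, x ≠ 1 → x ≠ z → f x = 0) :
    ∑ x, f x = f 1 + f z := by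
  classical
  rw [← Finset.sum_pair h.ne.symm]
  refine (Finset.sum_subset (Finset.subset_univ _) fun x _ hx => ?_).symm
  simp only [Finset.mem_insert, Finset.mem_singleton, not_or] at hx
  exact hf x hx.1 hx.2

end XS

variable {ι : Type} [Fintype ι] [DecidableEq ι]

/-- A representation with `z ↦ -1` and scalar centraliser. -/
structure SR (z : E) (θ : E →* Matrix ι ι ℂ) : Prop where
  ne : Nonempty ι
  hz : θ z = -1
  schur : ∀ M, (∀ x, M * θ x = θ x * M) → ∃ c : ℂ, M = c • (1 : Matrix ι ι ℂ)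

/-- `X` intertwines `θ` with its twist by `φ`. -/
def IT (θ : E →* Matrix ι ι ℂ) (φ : MulAut E) (X : Matrix ι ι ℂ) : Prop :=
  ∀ x, X * θ x = θ (φ x) * X

variable {θ : E →* Matrix ι ι ℂ}

theorem IT.mul {φ ψ : MulAut E} {X Y : Matrix ι ι ℂ} (hX : IT θ φ X) (hY : IT θ ψ Y) :
    IT θ (φ * ψ) (X * Y) := fun x => by
  rw [mul_assoc, hY, ← mul_assoc, hX, mul_assoc]; rfl

theorem IT.one : IT θ 1 1 := fun x => by simp

theorem IT.pow {φ : MulAut E} {X : Matrix ι ι ℂ} (hX : IT θ φ X) (n : ℕ) :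
    IT θ (φ ^ n) (X ^ n) := by
  induction n with
  | zero => simpa using IT.one
  | succ n ih => rw [pow_succ, pow_succ]; exact ih.mul hX

theorem IT.smul {φ : MulAut E} {X : Matrix ι ι ℂ} (hX : IT θ φ X) (c : ℂ) :
    IT θ φ (c • X) := fun x => by rw [smul_mul_assoc, hX, mul_smul_comm]

theorem IT.inv {φ : MulAut E} {X Y : Matrix ι ι ℂ} (hX : IT θ φ X) (h : X * Y = 1) :
    IT θ φ⁻¹ Y := fun x => by
  have h' : Y * X = 1 := mul_eq_one_comm.mp h
  have := hX (φ⁻¹ x)
  rw [MulAut.apply_inv_self] at this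
  calc Y * θ x = Y * (θ x * X) * Y := by simp only [mul_assoc, h, mul_one]
    _ = _ := by rw [← this, ← mul_assoc, h', one_mul]

theorem th_inv (x : E) : θ x * θ x⁻¹ = 1 := by rw [← map_mul, mul_inv_cancel, map_one]

theorem th_inv' (x : E) : θ x⁻¹ * θ x = 1 := by rw [← map_mul, inv_mul_cancel, map_one]

theorem tr0 {z : E} (h : XS z) (hz : θ z = -1) {x : E} (h1 : x ≠ 1) (h2 : x ≠ z) :
    trace (θ x) = 0 := by
  obtain ⟨y, hy⟩ : ∃ y, x * y ≠ y * x := by
    by_contra hc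
    push Not at hc
    exact (h.nd x hc).elim h1 h2
  have e := (h.comm x y).resolve_left hy
  have e2 : x = z * (y * x * y⁻¹) := by rw [← mul_assoc, ← e, mul_inv_cancel_right]
  have e3 : trace (θ x) = - trace (θ x) := by
    conv_lhs => rw [e2]
    rw [map_mul, hz, map_mul, map_mul, neg_mul, one_mul, trace_neg, trace_mul_cycle, th_inv',
      one_mul]
  linear_combination e3 / 2

theorem sum_tr [Fintype E] (θ θ' : E →* Matrix ι ι ℂ) :
    ∑ x, trace (θ' x) * trace (θ x⁻¹) =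
      ∑ i, ∑ j, (∑ x, θ' x * single i j (1 : ℂ) * θ x⁻¹ : Matrix ι ι ℂ) i j := by
  simp only [Matrix.sum_apply, trace, diag, Finset.sum_mul_sum]
  rw [Finset.sum_comm]
  refine Finset.sum_congr rfl fun i _ => ?_
  rw [Finset.sum_comm]
  refine Finset.sum_congr rfl fun j _ => Finset.sum_congr rfl fun x _ => ?_
  simp [Matrix.mul_apply, single, ite_and]

theorem sum_tr2 [Fintype E] {z : E} (h : XS z) (hz : θ z = -1) (φ : MulAut E) :
    ∑ x, trace (θ (φ x)) * trace (θ x⁻¹) = 2 * (Fintype.card ι : ℂ) ^ 2 := by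
  rw [h.sum2 _ fun x h1 h2 => ?_]
  · rw [h.fixz, inv_eq_of_mul_eq_one_right h.sq, hz]
    simp only [map_one, inv_one, trace_one, trace_neg]
    ring
  · rw [tr0 h hz (x := x⁻¹) (by simpa using h1), mul_zero]
    rw [Ne, inv_eq_iff_eq_inv, inv_eq_of_mul_eq_one_right h.sq]
    exact h2

theorem avg_it [Fintype E] (φ : MulAut E) (M : Matrix ι ι ℂ) :
    IT θ φ (∑ x, θ (φ x) * M * θ x⁻¹) := fun y => by
  rw [Finset.sum_mul, Finset.mul_sum]
  refine (Fintype.sum_equiv (Equiv.mulLeft y) _ _ fun x => ?_).symm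
  simp only [Equiv.coe_mulLeft, map_mul, _root_.mul_inv_rev, mul_assoc, th_inv', mul_one]

namespace SR

variable {z : E} (hs : SR z θ)
include hs

theorem card_ne : (Fintype.card ι : ℂ) ≠ 0 := by
  have := hs.ne
  exact_mod_cast Fintype.card_ne_zero

theorem smul_inj {c d : ℂ} (h : c • (1 : Matrix ι ι ℂ) = d • 1) : c = d := by
  obtain ⟨i⟩ := hs.ne
  simpa using congrFun (congrFun h i) i

theorem avg [Fintype E] (M : Matrix ι ι ℂ) :
    ∑ x, θ x * M * θ x⁻¹ = ((Fintype.card E : ℂ) / Fintype.card ι * trace M) • 1 := by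
  obtain ⟨c, hc⟩ := hs.schur _ (avg_it (θ := θ) 1 M)
  simp only [MulAut.one_apply] at hc
  have h1 := congrArg trace hc
  simp only [trace_sum, trace_mul_cycle (θ _), th_inv', one_mul, trace_smul, trace_one,
    Finset.sum_const, Finset.card_univ, nsmul_eq_mul, smul_eq_mul] at h1
  rw [hc]
  congr 1
  have := hs.card_ne
  field_simp
  linear_combination -h1

theorem card_eq [Fintype E] (h : XS z) : (Fintype.card E : ℂ) = 2 * (Fintype.card ι : ℂ) ^ 2 := by
  have h1 := sum_tr2 h hs.hz 1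
  simp only [MulAut.one_apply] at h1
  rw [← h1, sum_tr]
  simp only [hs.avg, Matrix.smul_apply, one_apply, trace, diag, single, of_apply, smul_eq_mul]
  have := hs.card_ne
  have e : ∀ i j : ι, (Fintype.card E : ℂ) / Fintype.card ι * (∑ k : ι, if i = k ∧ j = k then (1 : ℂ) else 0) *
      (if i = j then 1 else 0) = if i = j then (Fintype.card E : ℂ) / Fintype.card ι else 0 := by
    intro i j
    by_cases e : i = j
    · subst e; simp
    · simp [e]
  simp only [e, Finset.sum_ite_eq, Finset.mem_univ, if_true, Finset.sum_const, Finset.card_univ,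
    nsmul_eq_mul]
  field_simp

theorem card_pow [Finite E] (h : XS z) : ∃ n, Fintype.card ι ∣ 2 ^ n := by
  have := Fintype.ofFinite E
  have : Fact (Nat.Prime 2) := ⟨Nat.prime_two⟩
  obtain ⟨n, hn⟩ := IsPGroup.iff_card.mp h.isPGroup
  have h1 : Fintype.card E = 2 * Fintype.card ι ^ 2 := by exact_mod_cast hs.card_eq h
  refine ⟨n, ?_⟩
  rw [← hn, Nat.card_eq_fintype_card, h1]
  exact ⟨2 * Fintype.card ι, by ring⟩

theorem exists_it [Finite E] (h : XS z) (φ : MulAut E) :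
    ∃ X Y : Matrix ι ι ℂ, IT θ φ X ∧ X * Y = 1 := by
  have := Fintype.ofFinite E
  have h1 := sum_tr2 h hs.hz φ
  have h2 := sum_tr θ (θ.comp φ.toMonoidHom)
  obtain ⟨M, hM⟩ : ∃ M, (∑ x, θ (φ x) * M * θ x⁻¹) ≠ 0 := by
    by_contra hc
    push Not at hc
    simp only [MonoidHom.comp_apply, MulEquiv.coe_toMonoidHom, hc, h1] at h2
    simp [Fintype.card_ne_zero, hs.card_ne] at h2
  have hX := avg_it (θ := θ) φ M
  generalize (∑ x, θ (φ x) * M * θ x⁻¹) = X at hM hX
  obtain ⟨i, j, hij⟩ : ∃ i j, X i j ≠ 0 := by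
    by_contra hc
    push Not at hc
    exact hM (Matrix.ext hc)
  have h3 := hs.avg (single j i 1 * X)
  have h4 : trace (single j i (1 : ℂ) * X) = X i j := by simp [trace, Matrix.mul_apply, single, ite_and]
  have h5 : (∑ x, θ x * single j i 1 * θ (φ x⁻¹)) * X = ∑ x, θ x * (single j i 1 * X) * θ x⁻¹ := by
    rw [Finset.sum_mul]
    refine Finset.sum_congr rfl fun x _ => ?_
    simp only [mul_assoc, hX x⁻¹]
  rw [h3, h4] at h5
  have h6 : (Fintype.card E : ℂ) / Fintype.card ι * X i j ≠ 0 :=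
    mul_ne_zero (div_ne_zero (by exact_mod_cast Fintype.card_ne_zero) hs.card_ne) hij
  refine ⟨X, ((Fintype.card E : ℂ) / Fintype.card ι * X i j)⁻¹ •
    ∑ x, θ x * single j i 1 * θ (φ x⁻¹), hX, mul_eq_one_comm.mp ?_⟩
  rw [smul_mul_assoc, h5, smul_smul, inv_mul_cancel₀ h6, one_smul]

theorem uniq {φ : MulAut E} {X X' Y : Matrix ι ι ℂ} (hX : IT θ φ X) (hX' : X * X' = 1)
    (hY : IT θ φ Y) : ∃ c : ℂ, Y = c • X := by
  have h1 := (hX.inv hX').mul hY
  rw [inv_mul_cancel] at h1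
  obtain ⟨c, hc⟩ := hs.schur _ h1
  refine ⟨c, ?_⟩
  rw [← one_mul Y, ← hX', mul_assoc, hc, mul_smul_comm, mul_one]

theorem tr_mul [Finite E] (h : XS z) {φ : MulAut E} {X X' : Matrix ι ι ℂ} (hX : IT θ φ X)
    (hX' : X * X' = 1) (hφ : ∀ x, φ x = x ∨ φ x = z * x → x = 1 ∨ x = z) :
    trace X * trace X' = 1 := by
  have := Fintype.ofFinite E
  have h1 := congrArg (fun M => trace (M * X')) (hs.avg X)
  have h2 : ∀ x, θ x * X * θ x⁻¹ * X' = θ (x * φ x⁻¹) := fun x => by
    rw [mul_assoc (θ x), hX, map_mul, mul_assoc, mul_assoc, hX', mul_one]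
  simp only [Finset.sum_mul, h2, trace_sum, smul_mul_assoc, one_mul, trace_smul, smul_eq_mul] at h1
  rw [h.sum2 _ fun x h3 h4 => ?_, hs.card_eq h, map_inv, map_inv, h.fixz, map_one, mul_inv_cancel,
    mul_inv_cancel, map_one, trace_one] at h1
  · have := hs.card_ne
    field_simp at h1
    linear_combination -h1 / 2
  · refine tr0 h hs.hz (fun e => ?_) fun e => ?_
    · rw [map_inv, mul_inv_eq_one] at e
      exact (hφ x (Or.inl e.symm)).elim h3 h4
    · rw [map_inv, mul_inv_eq_iff_eq_mul] at e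
      refine (hφ x (Or.inr ?_)).elim h3 h4
      conv_rhs => rw [e]
      rw [← mul_assoc, h.sq, one_mul]

end SR

theorem sr_of_irr {z : E} (h : XS z) {n : ℕ} (ρ : Representation ℂ E (Fin n → ℂ))
    [ρ.IsIrreducible] (hz : ρ.character z ≠ ρ.character 1) :
    ∃ θ : E →* Matrix (Fin n) (Fin n) ℂ, SR z θ ∧ ∀ x, ρ.character x = trace (θ x) := by
  let θ : E →* Matrix (Fin n) (Fin n) ℂ :=
    (LinearMap.toMatrixAlgEquiv' : ((Fin n → ℂ) →ₗ[ℂ] (Fin n → ℂ)) ≃ₐ[ℂ] _).toMonoidHom.comp ρ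
  have hθ : ∀ x, θ x = LinearMap.toMatrix' (ρ x) := fun x => rfl
  have htr : ∀ x, ρ.character x = trace (θ x) := fun x => by
    rw [hθ, ← Matrix.trace_toLin'_eq, toLin'_toMatrix']; rfl
  have hn : Nonempty (Fin n) := by
    have := H4.finrank_pos_of_isIrreducible ρ
    rw [Module.finrank_fin_fun] at this
    exact ⟨⟨0, this⟩⟩
  have hsc : ∀ M, (∀ x, M * θ x = θ x * M) → ∃ c : ℂ, M = c • (1 : Matrix (Fin n) (Fin n) ℂ) := by
    intro M hM
    obtain ⟨c, hc⟩ := H4.schur_scalar ρ (toLin' M) fun g => by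
      apply LinearMap.toMatrix'.injective
      rw [LinearMap.toMatrix'_comp, LinearMap.toMatrix'_comp, LinearMap.toMatrix'_toLin']
      exact hM g
    refine ⟨c, ?_⟩
    rw [← LinearMap.toMatrix'_toLin' M, hc, map_smul, LinearMap.toMatrix'_id]
  refine ⟨θ, ⟨hn, ?_, hsc⟩, htr⟩
  obtain ⟨c, hc⟩ := hsc (θ z) fun x => by rw [← map_mul, h.cen, map_mul]
  have h2 : θ z * θ z = 1 := by rw [← map_mul, h.sq, map_one]
  rw [hc, smul_mul_smul, mul_one] at h2
  obtain ⟨i⟩ := hn
  have h3 : c * c = 1 := by simpa using congrFun (congrFun h2 i) i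
  rcases mul_self_eq_one_iff.mp h3 with rfl | rfl
  · exact absurd (by rw [htr, htr, hc, one_smul, map_one]) hz
  · rw [hc, neg_smul, one_smul]

theorem exists_sr [Finite E] {z : E} (h : XS z) :
    ∃ (n : ℕ) (θ : E →* Matrix (Fin n) (Fin n) ℂ), SR z θ := by
  obtain ⟨χ, ⟨n, ρ, hρ, rfl⟩, hz⟩ := H4.exists_irr_apply_ne h.ne
  obtain ⟨θ, hθ, -⟩ := sr_of_irr h ρ hz
  exact ⟨n, θ, hθ⟩

end Cfsg.Agent.H15D
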