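import Cfsg.Agent.H15D.A
import Mathlib.GroupTheory.Transfer

/-! Dade's extension theorem, part B: lifts, cyclic extension and transfer. -/

set_option autoImplicit false
set_option linter.unusedSectionVars false

namespace Cfsg.Agent.H15D

open Matrix

variable {E : Type*} [Group E] {ι : Type} [Fintype ι] [DecidableEq ι]

/-- A multiplicative choice of intertwiners on `S`. -/
structure Lift (θ : E →* Matrix ι ι ℂ) (S : Subgroup (MulAut E)) (T : MulAut E → Matrix ι ι ℂ) :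
    Prop where
  one : T 1 = 1
  mul : ∀ a ∈ S, ∀ b ∈ S, T (a * b) = T a * T b
  it : ∀ a ∈ S, IT θ a (T a)

/-- Some Schur representation extends over `S`. -/
def Ext (z : E) (S : Subgroup (MulAut E)) : Prop :=
  ∃ (ι : Type) (_ : Fintype ι) (_ : DecidableEq ι) (θ : E →* Matrix ι ι ℂ)
    (T : MulAut E → Matrix ι ι ℂ), SR z θ ∧ Lift θ S T

variable {θ : E →* Matrix ι ι ℂ} {z : E}

theorem Lift.inv {S : Subgroup (MulAut E)} {T : MulAut E → Matrix ι ι ℂ} (h : Lift θ S T)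
    {a : MulAut E} (ha : a ∈ S) : T a * T a⁻¹ = 1 := by
  rw [← h.mul a ha _ (inv_mem ha), mul_inv_cancel, h.one]

theorem Lift.pow {S : Subgroup (MulAut E)} {T : MulAut E → Matrix ι ι ℂ} (h : Lift θ S T)
    {a : MulAut E} (ha : a ∈ S) (n : ℕ) : T (a ^ n) = T a ^ n := by
  induction n with
  | zero => simpa using h.one
  | succ n ih => rw [pow_succ, pow_succ, h.mul _ (pow_mem ha n) _ ha, ih]

theorem cyc_ext [Finite E] (hs : SR z θ) {N S : Subgroup (MulAut E)} {T₀ : MulAut E → Matrix ι ι ℂ}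
    (h₀ : Lift θ N T₀) {s : MulAut E} (hN : ∀ n ∈ N, s * n * s⁻¹ ∈ N)
    (hS : ∀ g ∈ S, ∃ n ∈ N, ∃ i : ℕ, g = n * s ^ i) {U U' : Matrix ι ι ℂ} (hU : IT θ s U)
    (hU' : U * U' = 1) (hc : ∀ n ∈ N, U * T₀ n = T₀ (s * n * s⁻¹) * U) :
    ∃ T, Lift θ S T := by
  classical
  have hex : ∃ k, 0 < k ∧ s ^ k ∈ N := ⟨orderOf s, orderOf_pos s, by simp [one_mem]⟩
  obtain ⟨hk0, hk⟩ := Nat.find_spec hex
  set k := Nat.find hex with hkd
  have hdvd : ∀ i, s ^ i ∈ N → k ∣ i := fun i hi => by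
    by_contra hc
    have h1 : 0 < i % k := Nat.pos_of_ne_zero fun e => hc (Nat.dvd_of_mod_eq_zero e)
    refine Nat.find_min hex (Nat.mod_lt i hk0) ⟨h1, ?_⟩
    have h2 : s ^ i = (s ^ k) ^ (i / k) * s ^ (i % k) := by
      rw [← pow_mul, ← pow_add, Nat.div_add_mod]
    rw [h2] at hi
    exact (mul_mem_cancel_left (pow_mem hk _)).mp hi
  obtain ⟨c, hc1⟩ := hs.uniq (h₀.it _ hk) (h₀.inv hk) (hU.pow k)
  have hc0 : c ≠ 0 := by
    rintro rfl
    have h1 : U ^ k * U' ^ k = 1 := by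
      rw [← Commute.mul_pow (show Commute U U' from hU'.trans (mul_eq_one_comm.mp hU').symm), hU',
        one_pow]
    rw [hc1, zero_smul, zero_mul] at h1
    exact zero_ne_one (hs.smul_inj (c := 0) (d := 1) (by simpa using h1))
  obtain ⟨t, ht⟩ := IsAlgClosed.exists_pow_nat_eq c⁻¹ hk0
  set W := t • U with hW
  have hWk : W ^ k = T₀ (s ^ k) := by
    rw [hW, smul_pow, hc1, ht, smul_smul, inv_mul_cancel₀ hc0, one_smul]
  have hWc : ∀ i : ℕ, ∀ n ∈ N, s ^ i * n * (s ^ i)⁻¹ ∈ N ∧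
      W ^ i * T₀ n = T₀ (s ^ i * n * (s ^ i)⁻¹) * W ^ i := fun i => by
    induction i with
    | zero => intro n hn; simpa using hn
    | succ i ih =>
      intro n hn
      have e : s ^ (i + 1) * n * (s ^ (i + 1))⁻¹ = s ^ i * (s * n * s⁻¹) * (s ^ i)⁻¹ := by group
      rw [e]
      refine ⟨(ih _ (hN n hn)).1, ?_⟩
      rw [pow_succ, mul_assoc, ← mul_assoc _ (W ^ i), ← (ih _ (hN n hn)).2, mul_assoc]
      congr 1
      rw [hW, smul_mul_assoc, hc n hn, mul_smul_comm]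
  have key0 : ∀ n ∈ N, ∀ n' ∈ N, ∀ i j : ℕ, n * s ^ i = n' * s ^ (j + i) →
      T₀ n * W ^ i = T₀ n' * W ^ (j + i) := fun n hn n' hn' i j e => by
    rw [pow_add, ← mul_assoc, mul_left_inj] at e
    have h1 : s ^ j ∈ N := by rwa [e, mul_mem_cancel_left hn'] at hn
    obtain ⟨q, rfl⟩ := hdvd j h1
    rw [e, h₀.mul _ hn' _ h1, pow_mul, h₀.pow hk, ← hWk, ← pow_mul, pow_add, mul_assoc]
  have key : ∀ n ∈ N, ∀ n' ∈ N, ∀ i j : ℕ, n * s ^ i = n' * s ^ j →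
      T₀ n * W ^ i = T₀ n' * W ^ j := fun n hn n' hn' i j e => by
    rcases le_total i j with h | h
    · obtain ⟨j, rfl⟩ := Nat.exists_eq_add_of_le' h
      exact key0 n hn n' hn' i j e
    · obtain ⟨i, rfl⟩ := Nat.exists_eq_add_of_le' h
      exact (key0 n' hn' n hn j i e.symm).symm
  choose! f hf g hg using hS
  refine ⟨fun a => T₀ (f a) * W ^ g a, ?_, fun a ha b hb => ?_, fun a ha => ?_⟩
  · simpa [h₀.one] using key _ (hf 1 S.one_mem) 1 N.one_mem (g 1) 0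
      (by rw [← hg 1 S.one_mem]; simp)
  · obtain ⟨h1, h2⟩ := hWc (g a) _ (hf b hb)
    rw [key _ (hf _ (mul_mem ha hb)) _ (mul_mem (hf a ha) h1) (g (a * b)) (g a + g b) (by
      rw [← hg _ (mul_mem ha hb)]
      conv_lhs => rw [hg a ha, hg b hb]
      group), h₀.mul _ (hf a ha) _ h1, pow_add]
    simp only [mul_assoc]
    rw [← mul_assoc (W ^ g a), h2]
    simp only [mul_assoc]
  · have := (h₀.it _ (hf a ha)).mul ((hU.smul t).pow (g a))
    rwa [← hg a ha] at this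

theorem unit_smul {c : ℂ} (hc : c ≠ 0) {X : Matrix ι ι ℂ} (hX : IsUnit X) : IsUnit (c • X) :=
  hX.smul (Units.mk0 c hc)

/-- Normalising the intertwiners by a multiplicative function. -/
theorem of_nu [Finite E] (h : XS z) (hs : SR z θ) {N : Subgroup (MulAut E)}
    (ν : MulAut E → Matrix ι ι ℂ → ℂ)
    (hm : ∀ a ∈ N, ∀ b ∈ N, ∀ X Y, IT θ a X → IsUnit X → IT θ b Y → IsUnit Y →
      ν (a * b) (X * Y) = ν a X * ν b Y)
    (hc : ∀ c : ℂ, c ≠ 0 → ν 1 (c • 1) = c) :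
    ∃ T, Lift θ N T ∧ (∀ a ∈ N, ν a (T a) = 1) ∧
      ∀ a ∈ N, ∀ X, IT θ a X → IsUnit X → ν a X = 1 → X = T a := by
  have h1 : ν 1 1 = 1 := by simpa using hc 1 one_ne_zero
  have hsm : ∀ a ∈ N, ∀ X, IT θ a X → IsUnit X → ∀ c : ℂ, c ≠ 0 → ν a (c • X) = c * ν a X :=
    fun a ha X hX hu c hc0 => by
      have := hm 1 N.one_mem a ha (c • 1) X (IT.one.smul c)
        (unit_smul hc0 isUnit_one) hX hu
      rwa [one_mul, smul_mul_assoc, one_mul, hc c hc0] at this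
  have hex : ∀ a ∈ N, ∃ X, IT θ a X ∧ IsUnit X ∧ ν a X = 1 := fun a ha => by
    obtain ⟨X, Y, hX, hY⟩ := hs.exists_it h a
    have hu := IsUnit.of_mul_eq_one _ hY
    have h2 := hm a ha _ (inv_mem ha) X Y hX hu (hX.inv hY)
      (IsUnit.of_mul_eq_one _ (mul_eq_one_comm.mp hY))
    rw [mul_inv_cancel, hY, h1] at h2
    have h3 : ν a X ≠ 0 := left_ne_zero_of_mul_eq_one h2.symm
    refine ⟨(ν a X)⁻¹ • X, hX.smul _, unit_smul (inv_ne_zero h3) hu, ?_⟩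
    rw [hsm a ha X hX hu _ (inv_ne_zero h3), inv_mul_cancel₀ h3]
  choose! T hT hu hν using hex
  have hq : ∀ a ∈ N, ∀ X, IT θ a X → IsUnit X → ν a X = 1 → X = T a := fun a ha X hX hX' e => by
    obtain ⟨Y, hY⟩ := (hu a ha).exists_right_inv
    obtain ⟨c, rfl⟩ := hs.uniq (hT a ha) hY hX
    have hc0 : c ≠ 0 := by
      rintro rfl
      have := hs.ne
      rw [zero_smul] at hX'
      exact not_isUnit_zero hX'
    rw [hsm a ha _ (hT a ha) (hu a ha) c hc0, hν a ha, mul_one] at e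
    rw [e, one_smul]
  refine ⟨T, ⟨(hq 1 N.one_mem 1 IT.one isUnit_one h1).symm, fun a ha b hb => ?_, hT⟩, hν, hq⟩
  refine (hq _ (mul_mem ha hb) _ ((hT a ha).mul (hT b hb)) ((hu a ha).mul (hu b hb)) ?_).symm
  rw [hm a ha b hb _ _ (hT a ha) (hu a ha) (hT b hb) (hu b hb), hν a ha, hν b hb, mul_one]

theorem zpow_bezout {m d : ℕ} (hc : m.Coprime d) :
    ∃ u v : ℤ, ∀ c : ℂ, c ≠ 0 → (c ^ m) ^ u * (c ^ d) ^ v = c := by
  refine ⟨Nat.gcdA m d, Nat.gcdB m d, fun c hc0 => ?_⟩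
  rw [← zpow_natCast, ← zpow_natCast, ← _root_.zpow_mul, ← _root_.zpow_mul, ← zpow_add₀ hc0,
    ← Nat.gcd_eq_gcd_ab, hc.gcd_eq_one]
  simp

/-- The group of pairs (automorphism in `L`, invertible intertwiner). -/
def Gam (θ : E →* Matrix ι ι ℂ) (L : Subgroup (MulAut E)) :
    Subgroup (MulAut E × (Matrix ι ι ℂ)ˣ) where
  carrier := {p | p.1 ∈ L ∧ IT θ p.1 p.2}
  one_mem' := ⟨L.one_mem, IT.one⟩
  mul_mem' ha hb := ⟨mul_mem ha.1 hb.1, ha.2.mul hb.2⟩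
  inv_mem' {a} ha := ⟨inv_mem ha.1, ha.2.inv a.2.mul_inv⟩

theorem transfer_ext [Finite E] (h : XS z) (hs : SR z θ) {S L : Subgroup (MulAut E)}
    (hodd : Odd (S.relIndex L)) {T₀ : MulAut E → Matrix ι ι ℂ} (h₀ : Lift θ S T₀) :
    ∃ T, Lift θ L T := by
  classical
  let π : Gam θ L →* L := ((MonoidHom.fst _ _).comp (Gam θ L).subtype).codRestrict L fun p => p.2.1
  have hπ : Function.Surjective π := fun a => by
    obtain ⟨X, Y, hX, hY⟩ := hs.exists_it h a.1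
    exact ⟨⟨(a.1, ⟨X, Y, hY, mul_eq_one_comm.mp hY⟩), a.2, hX⟩, rfl⟩
  let Γ : Subgroup (Gam θ L) := (S.subgroupOf L).comap π
  have hi : Γ.index = S.relIndex L := Subgroup.index_comap_of_surjective _ hπ
  have : Γ.FiniteIndex := ⟨by rw [hi]; exact Subgroup.index_ne_zero_of_finite⟩
  have hex : ∀ p : Γ, ∃ c : ℂ, (p.1.1.2 : Matrix ι ι ℂ) = c • T₀ p.1.1.1 := fun p =>
    hs.uniq (h₀.it _ p.2) (h₀.inv p.2) p.1.2.2
  choose f hf using hex
  have hq : ∀ (p : Γ) (c : ℂ), (p.1.1.2 : Matrix ι ι ℂ) = c • T₀ p.1.1.1 → f p = c := fun p c e => by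
    have := congrArg (· * T₀ (p.1.1.1)⁻¹) ((hf p).symm.trans e)
    simp only [smul_mul_assoc, h₀.inv (show p.1.1.1 ∈ S from p.2)] at this
    exact hs.smul_inj this
  let F : Γ →* ℂ :=
    { toFun := f
      map_one' := hq 1 1 (by simpa using h₀.one.symm)
      map_mul' := fun p q => hq _ _ (by
        change (p.1.1.2 : Matrix ι ι ℂ) * q.1.1.2 = _ • T₀ (p.1.1.1 * q.1.1.1)
        rw [hf p, hf q, h₀.mul p.1.1.1 p.2 q.1.1.1 q.2, smul_mul_smul]) }
  let V := MonoidHom.transfer F.toHomUnits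
  obtain ⟨n, hn⟩ := hs.card_pow h
  obtain ⟨u, v, huv⟩ := zpow_bezout (m := S.relIndex L) (d := Fintype.card ι)
    ((Nat.Coprime.pow_right n (Nat.coprime_two_right.mpr hodd)).coprime_dvd_right hn)
  let ν : MulAut E → Matrix ι ι ℂ → ℂ := fun a X =>
    if hh : a ∈ L ∧ IT θ a X ∧ IsUnit X then
      (V ⟨(a, hh.2.2.unit), hh.1, hh.2.1⟩ : ℂ) ^ u * X.det ^ v else 0
  obtain ⟨T, hT, -⟩ := of_nu h hs (N := L) ν (fun a ha b hb X Y hX hX' hY hY' => by
    simp only [ν]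
    rw [dif_pos ⟨mul_mem ha hb, hX.mul hY, hX'.mul hY'⟩, dif_pos ⟨ha, hX, hX'⟩,
      dif_pos ⟨hb, hY, hY'⟩]
    have e : (⟨(a * b, (hX'.mul hY').unit), mul_mem ha hb, hX.mul hY⟩ : Gam θ L) =
        ⟨(a, hX'.unit), ha, hX⟩ * ⟨(b, hY'.unit), hb, hY⟩ :=
      Subtype.ext (Prod.ext rfl (Units.ext rfl))
    rw [e, map_mul, det_mul, Units.val_mul, mul_zpow, mul_zpow]
    ring) (fun c hc0 => by
    have hu : IsUnit (c • (1 : Matrix ι ι ℂ)) := unit_smul hc0 isUnit_one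
    simp only [ν]
    rw [dif_pos ⟨L.one_mem, IT.one.smul c, hu⟩]
    set g : Gam θ L := ⟨(1, hu.unit), L.one_mem, IT.one.smul c⟩ with hg
    have hgc : ∀ y : Gam θ L, g * y = y * g := fun y =>
      Subtype.ext (Prod.ext (by simp [hg]) (Units.ext (by simp [hg])))
    have e : V g = _ := MonoidHom.transfer_eq_pow F.toHomUnits g fun k g₀ _ => by
      rw [mul_assoc, (Commute.pow_left (hgc g₀) k).eq, inv_mul_cancel_left]
    rw [e, det_smul, det_one, mul_one, MonoidHom.coe_toHomUnits]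
    change f _ ^ u * _ = c
    rw [hq _ (c ^ S.relIndex L) (by simp [hg, hi, h₀.one, smul_pow]), huv c hc0])
  exact ⟨T, hT⟩

end Cfsg.Agent.H15D
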