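import Cfsg.Agent.H15D.B
import Mathlib.Algebra.BigOperators.Ring.Nat

/-! Dade's extension theorem, part C: counting eigenvalue multiplicities. -/

set_option autoImplicit false
set_option linter.unusedSectionVars false

namespace Cfsg.Agent.H15D

open Matrix Finset

variable {ι : Type} [Fintype ι] [DecidableEq ι]

theorem sum_comm4 {α β γ δ M : Type*} [AddCommMonoid M] (s : Finset α) (t : Finset β)
    (u : Finset γ) (v : Finset δ) (f : α → β → γ → δ → M) :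
    ∑ a ∈ s, ∑ b ∈ t, ∑ c ∈ u, ∑ d ∈ v, f a b c d =
      ∑ c ∈ u, ∑ d ∈ v, ∑ a ∈ s, ∑ b ∈ t, f a b c d := by
  rw [← sum_product' (f := fun a b => ∑ c ∈ u, ∑ d ∈ v, f a b c d), sum_comm]
  refine sum_congr rfl fun c _ => ?_
  rw [sum_comm]
  exact sum_congr rfl fun d _ => sum_product' _ _ fun a b => f a b c d

theorem geo {x : ℂ} {n : ℕ} (h : x ^ n = 1) :
    ∑ k ∈ range n, x ^ k = if x = 1 then (n : ℂ) else 0 := by
  split_ifs with e
  · simp [e]
  · have := mul_geom_sum x n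
    rw [h, sub_self] at this
    exact (mul_eq_zero.mp this).resolve_left (sub_ne_zero.mpr e)

theorem pars {r t : ι → ℂ} {n q : ℕ} (hn : n ≠ 0) (hr : ∀ i, r i ^ n = 1)
    (ht : ∀ i, t i ^ (q + 1) = 1)
    (h : ∀ k : ℕ, ∀ j < q, (∑ i, r i ^ k * t i ^ (j + 1)) * (∑ i, (r i ^ k * t i ^ (j + 1))⁻¹) = 1) :
    ∑ i, ∑ i', (if r i = r i' then (if t i = t i' then (q + 1 : ℤ) else 0) - 1 else 0) = q := by
  have hr0 : ∀ i, r i ≠ 0 := fun i e => by simpa [e, hn] using hr i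
  have ht0 : ∀ i, t i ≠ 0 := fun i e => by simpa [e] using ht i
  have h1 : ∑ k ∈ range n, ∑ j ∈ range q,
      (∑ i, r i ^ k * t i ^ (j + 1)) * (∑ i, (r i ^ k * t i ^ (j + 1))⁻¹) = n * q := by
    rw [sum_congr rfl fun k _ => sum_congr rfl fun j hj => h k j (mem_range.mp hj)]
    simp
  have h2 : ∀ i i', ∑ k ∈ range n, ∑ j ∈ range q,
      r i ^ k * t i ^ (j + 1) * (r i' ^ k * t i' ^ (j + 1))⁻¹ =
      n * ((if r i = r i' then (if t i = t i' then (q + 1 : ℤ) else 0) - 1 else 0 : ℤ) : ℂ) := by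
    intro i i'
    have e1 := geo (x := r i / r i') (n := n) (by rw [div_pow, hr, hr, div_one])
    have e2 := geo (x := t i / t i') (n := q + 1) (by rw [div_pow, ht, ht, div_one])
    rw [sum_range_succ', pow_zero, ← eq_sub_iff_add_eq] at e2
    have e3 : ∀ k j : ℕ, r i ^ k * t i ^ (j + 1) * (r i' ^ k * t i' ^ (j + 1))⁻¹ =
        (r i / r i') ^ k * (t i / t i') ^ (j + 1) := fun k j => by
      rw [div_pow, div_pow, mul_inv]; ring
    simp only [e3, ← sum_mul_sum, e1, e2, div_eq_one_iff_eq (hr0 _), div_eq_one_iff_eq (ht0 _)]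
    split_ifs <;> simp
  simp only [sum_mul_sum] at h1
  rw [sum_comm4] at h1
  simp only [h2, ← mul_sum] at h1
  have h4 := mul_left_cancel₀ (by exact_mod_cast hn : (n : ℂ) ≠ 0) h1
  exact_mod_cast h4

/-- Joint multiplicity. -/
noncomputable def mu (r t : ι → ℂ) (ω ζ : ℂ) : ℤ := by
  classical exact ∑ i, if r i = ω ∧ t i = ζ then 1 else 0

theorem qsum (r t : ι → ℂ) {Λ : Finset ℂ} (ht : ∀ i, t i ∈ Λ) :
    ∑ ζ ∈ Λ, ∑ ζ' ∈ Λ, ∑ ω ∈ univ.image r, (mu r t ω ζ - mu r t ω ζ') ^ 2 =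
      2 * ∑ i, ∑ i', (if r i = r i' then (if t i = t i' then (Λ.card : ℤ) else 0) - 1 else 0) := by
  classical
  have hB : ∀ ζ ζ', ∑ ω ∈ univ.image r, mu r t ω ζ * mu r t ω ζ' =
      ∑ i, ∑ i', if r i = r i' ∧ t i = ζ ∧ t i' = ζ' then 1 else 0 := fun ζ ζ' => by
    simp only [mu, sum_mul_sum]
    rw [sum_comm]
    refine sum_congr rfl fun i _ => ?_
    rw [sum_comm]
    refine sum_congr rfl fun i' _ => ?_
    rw [sum_eq_single_of_mem (r i) (mem_image_of_mem _ (mem_univ i))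
      fun b _ hb => by simp [hb.symm]]
    by_cases e1 : r i = r i' <;> by_cases e2 : t i = ζ <;> simp [e1, e2, eq_comm]
  have e : ∀ ζ ζ', ∑ ω ∈ univ.image r, (mu r t ω ζ - mu r t ω ζ') ^ 2 =
      ∑ i, ∑ i', ((if r i = r i' ∧ t i = ζ ∧ t i' = ζ then 1 else 0) +
        (if r i = r i' ∧ t i = ζ' ∧ t i' = ζ' then 1 else 0) -
        2 * if r i = r i' ∧ t i = ζ ∧ t i' = ζ' then 1 else 0) := fun ζ ζ' => by
    simp only [sum_sub_distrib, sum_add_distrib, ← mul_sum, ← hB]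
    rw [mul_sum, ← sum_add_distrib, ← sum_sub_distrib]
    exact sum_congr rfl fun ω _ => by ring
  simp only [e, mul_sum]
  rw [sum_comm4]
  refine sum_congr rfl fun i _ => sum_congr rfl fun j _ => ?_
  have h1 := ht i
  have h2 := ht j
  by_cases e1 : r i = r j
  · by_cases e2 : t i = t j
    · simp [e1, e2, h2, sum_sub_distrib, sum_add_distrib, ite_and]
      ring
    · have e3 : ∀ ζ, ¬ (t i = ζ ∧ t j = ζ) := fun ζ hh => e2 (hh.1.trans hh.2.symm)
      simp only [e1, e2, e3, true_and, if_false, if_true, add_zero, zero_sub, sum_neg_distrib]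
      simp [h1, h2, ite_and]
  · simp [e1]

theorem cross {Λ : Finset ℂ} (g : ℂ → ℂ → ℤ) (hg : ∀ a b, 0 ≤ g a b) (P : ℂ → Prop) {c : ℤ}
    (hc : 0 ≤ c) {b : ℂ} (hb : b ∈ Λ) (hb' : ¬ P b)
    (h : ∀ a b, P a → ¬ P b → c ≤ g a b ∧ c ≤ g b a) {x y : ℂ} (hx : x ∈ Λ) (hx' : P x)
    (hy : y ∈ Λ) (hy' : P y) :
    g x y + 2 * c * (Λ.card - 1) ≤ ∑ a ∈ Λ, ∑ b ∈ Λ, g a b := by
  classical
  set A := Λ.filter P
  set B := Λ.filter fun a => ¬ P a
  have hA : 1 ≤ (A.card : ℤ) := by exact_mod_cast card_pos.mpr ⟨x, mem_filter.mpr ⟨hx, hx'⟩⟩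
  have hB : 1 ≤ (B.card : ℤ) := by exact_mod_cast card_pos.mpr ⟨b, mem_filter.mpr ⟨hb, hb'⟩⟩
  have hAB : (A.card : ℤ) + B.card = Λ.card := by exact_mod_cast card_filter_add_card_filter_not P
  have h1 : g x y ≤ ∑ a ∈ A, ∑ b ∈ A, g a b :=
    (single_le_sum (f := g x) (fun b _ => hg x b) (mem_filter.mpr ⟨hy, hy'⟩)).trans
      (single_le_sum (f := fun a => ∑ b ∈ A, g a b) (fun a _ => sum_nonneg fun b _ => hg a b)
        (mem_filter.mpr ⟨hx, hx'⟩))
  have h2 : ∑ a ∈ A, ∑ b ∈ B, c ≤ ∑ a ∈ A, ∑ b ∈ B, g a b := sum_le_sum fun a ha =>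
    sum_le_sum fun b hb => (h a b (mem_filter.mp ha).2 (mem_filter.mp hb).2).1
  have h3 : ∑ a ∈ B, ∑ b ∈ A, c ≤ ∑ a ∈ B, ∑ b ∈ A, g a b := sum_le_sum fun a ha =>
    sum_le_sum fun b hb => (h b a (mem_filter.mp hb).2 (mem_filter.mp ha).2).2
  have h4 : 0 ≤ ∑ a ∈ B, ∑ b ∈ B, g a b := sum_nonneg fun a _ => sum_nonneg fun b _ => hg a b
  rw [← sum_filter_add_sum_filter_not Λ P]
  simp only [← sum_filter_add_sum_filter_not Λ P (g _), sum_add_distrib]
  simp only [sum_const, nsmul_eq_mul] at h2 h3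
  have h5 : c * (Λ.card - 1) ≤ c * (A.card * B.card) :=
    mul_le_mul_of_nonneg_left (by nlinarith) hc
  nlinarith

/-- Multiplicity of an eigenvalue. -/
noncomputable def ml (t : ι → ℂ) (ζ : ℂ) : ℕ := by
  classical exact (univ.filter fun i => t i = ζ).card

theorem sum_mu (r t : ι → ℂ) (ζ : ℂ) : ∑ ω ∈ univ.image r, mu r t ω ζ = ml t ζ := by
  classical
  simp only [mu, ml, card_filter, Nat.cast_sum]
  rw [sum_comm]
  refine sum_congr rfl fun i _ => ?_
  simp [ite_and]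

theorem sum_ml (t : ι → ℂ) {Λ : Finset ℂ} (ht : ∀ i, t i ∈ Λ) :
    ∑ ζ ∈ Λ, ml t ζ = Fintype.card ι := by
  classical
  exact (card_eq_sum_card_fiberwise (f := t) (s := univ) (t := Λ) fun i _ => ht i).symm

theorem ex_even (t : ι → ℂ) {Λ : Finset ℂ} (ht : ∀ i, t i ∈ Λ) (hp : Odd Λ.card)
    (hd : Even (Fintype.card ι)) : ∃ ζ ∈ Λ, ¬ Odd (ml t ζ) := by
  by_contra hc
  push Not at hc
  rw [← sum_ml t ht, even_sum_iff_even_card_odd, filter_true_of_mem hc] at hd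
  exact (Nat.not_even_iff_odd.mpr hp) hd

theorem ex_odd [Nonempty ι] (t : ι → ℂ) {Λ : Finset ℂ} (ht : ∀ i, t i ∈ Λ) (hp : 1 < Λ.card)
    (h : ∑ i, ∑ i', ((if t i = t i' then (Λ.card : ℤ) else 0) - 1) = Λ.card - 1) :
    ∃ ζ ∈ Λ, Odd (ml t ζ) := by
  classical
  by_contra hc
  push Not at hc
  have h1 := qsum (fun _ => 1) t ht
  have e : ∀ ζ, mu (fun _ => 1) t 1 ζ = ml t ζ := fun ζ => by
    rw [← sum_mu (fun _ => 1), image_const univ_nonempty, sum_singleton]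
  simp only [image_const univ_nonempty, sum_singleton, if_true, h, e] at h1
  have hp' : (1 : ℤ) < Λ.card := by exact_mod_cast hp
  obtain ⟨x, hx⟩ := card_pos.mp (zero_lt_one.trans hp)
  by_cases hb : ∃ b ∈ Λ, ml t b ≠ ml t x
  · obtain ⟨b, hb, hb'⟩ := hb
    have := cross (Λ := Λ) (fun a b => if a ∈ Λ ∧ b ∈ Λ then ((ml t a : ℤ) - ml t b) ^ 2 else 4)
      (fun a b => by split_ifs <;> positivity) (fun a => ml t a = ml t x) (c := 4) (by norm_num)
      hb hb' (fun a b ha hb => ?_) hx rfl hx rfl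
    · rw [sum_congr rfl fun a ha => sum_congr rfl fun b hb => if_pos ⟨ha, hb⟩, h1] at this
      simp only [hx, and_self, if_true, sub_self] at this
      omega
    · have key : ∀ a ∈ Λ, ∀ b ∈ Λ, ml t a ≠ ml t b → 4 ≤ ((ml t a : ℤ) - ml t b) ^ 2 := by
        intro a ha b hb hne
        obtain ⟨u, hu⟩ := Nat.not_odd_iff_even.mp (hc a ha)
        obtain ⟨v, hv⟩ := Nat.not_odd_iff_even.mp (hc b hb)
        rw [hu, hv] at hne ⊢
        have : (u : ℤ) - v ≠ 0 := by omega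
        have := sq_pos_of_ne_zero this
        push_cast
        nlinarith
      constructor <;> split_ifs with hh
      · exact key a hh.1 b hh.2 (ha ▸ Ne.symm hb)
      · exact le_rfl
      · exact key b hh.1 a hh.2 (ha ▸ hb)
      · exact le_rfl
  · push Not at hb
    rw [sum_eq_zero fun a ha => sum_eq_zero fun b hb' => by rw [hb a ha, hb b hb']; simp] at h1
    omega

theorem prod_eq (r t : ι → ℂ) {Λ : Finset ℂ} (ht : ∀ i, t i ∈ Λ) (hp : Odd Λ.card)
    (hd : Even (Fintype.card ι))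
    (h : ∑ i, ∑ i', (if r i = r i' then (if t i = t i' then (Λ.card : ℤ) else 0) - 1 else 0) =
      Λ.card - 1) {x y : ℂ} (hx : x ∈ Λ) (hx' : Odd (ml t x)) (hy : y ∈ Λ) (hy' : Odd (ml t y)) :
    ∏ i, (if t i = x then r i else 1) = ∏ i, (if t i = y then r i else 1) := by
  classical
  have h1 := qsum r t ht
  obtain ⟨b, hb, hb'⟩ := ex_even t ht hp hd
  have key : ∀ a b, ml t a ≠ ml t b →
      1 ≤ ∑ ω ∈ univ.image r, (mu r t ω a - mu r t ω b) ^ 2 := fun a b hne => by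
    by_contra hc
    have h2 : ∑ ω ∈ univ.image r, (mu r t ω a - mu r t ω b) ^ 2 = 0 :=
      le_antisymm (by omega) (sum_nonneg fun _ _ => sq_nonneg _)
    rw [sum_eq_zero_iff_of_nonneg fun _ _ => sq_nonneg _] at h2
    apply hne
    have : (ml t a : ℤ) = ml t b := by
      rw [← sum_mu r, ← sum_mu r]
      exact sum_congr rfl fun ω hω => sub_eq_zero.mp (pow_eq_zero_iff two_ne_zero |>.mp (h2 ω hω))
    exact_mod_cast this
  have := cross (Λ := Λ) (fun a b => ∑ ω ∈ univ.image r, (mu r t ω a - mu r t ω b) ^ 2)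
    (fun a b => sum_nonneg fun _ _ => sq_nonneg _) (fun a => Odd (ml t a)) (c := 1) zero_le_one
    hb hb' (fun a b ha hb => ⟨key a b fun e => hb (e ▸ ha), key b a fun e => hb (e ▸ ha)⟩)
    hx hx' hy hy'
  rw [h1, h] at this
  have h2 : ∑ ω ∈ univ.image r, (mu r t ω x - mu r t ω y) ^ 2 = 0 :=
    le_antisymm (by omega) (sum_nonneg fun _ _ => sq_nonneg _)
  rw [sum_eq_zero_iff_of_nonneg fun _ _ => sq_nonneg _] at h2
  have e : ∀ ζ, ∏ i, (if t i = ζ then r i else 1) =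
      ∏ ω ∈ univ.image r, ω ^ (mu r t ω ζ).toNat := fun ζ => by
    rw [← prod_fiberwise_of_maps_to (s := univ) (g := r) fun i hi => mem_image_of_mem r hi]
    refine prod_congr rfl fun ω _ => ?_
    rw [← prod_filter, filter_filter, prod_congr rfl fun i hi => (mem_filter.mp hi).2.1,
      prod_const]
    congr 1
    rw [mu, sum_boole, Int.toNat_natCast]
  rw [e, e]
  exact prod_congr rfl fun ω hω => by
    rw [sub_eq_zero.mp (pow_eq_zero_iff two_ne_zero |>.mp (h2 ω hω))]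

end Cfsg.Agent.H15D
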