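import Cfsg.Agent.H15D.C
import Mathlib.RingTheory.ZMod.UnitsCyclic

/-! Dade's extension theorem, part D: a fixed point free automorphism of prime order. -/

set_option autoImplicit false
set_option linter.unusedSectionVars false

namespace Cfsg.Agent.H15D

open Matrix Finset

variable {ι : Type} [Fintype ι] [DecidableEq ι]

theorem ex_diag {X : Matrix ι ι ℂ} {N : ℕ} (hN : N ≠ 0) (hX : X ^ N = 1) :
    ∃ (P P' : Matrix ι ι ℂ) (l : ι → ℂ), P * P' = 1 ∧ X = P * diagonal l * P' := by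
  obtain ⟨b, ε, hb, -⟩ := H4.exists_eigenbasis (toLin' X) hN (by
    rw [← Matrix.toLin'_pow, hX, toLin'_one]; rfl)
  let e : Fin (Module.finrank ℂ (ι → ℂ)) ≃ ι := (Fintype.equivFinOfCardEq (by simp)).symm
  let b' := b.reindex e
  have h1 := Module.Basis.toMatrix_mul_toMatrix_flip (Pi.basisFun ℂ ι) b'
  refine ⟨_, _, ε ∘ e.symm, h1, ?_⟩
  have h2 : X * (Pi.basisFun ℂ ι).toMatrix b' =
      (Pi.basisFun ℂ ι).toMatrix b' * diagonal (ε ∘ e.symm) := by
    ext i j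
    have := congrFun (hb (e.symm j)) i
    simp only [toLin'_apply, mulVec, dotProduct, Pi.smul_apply, smul_eq_mul] at this
    rw [mul_diagonal, Matrix.mul_apply]
    simp [Module.Basis.toMatrix_apply, b', this, mul_comm]
  rw [← h2, mul_assoc, h1, mul_one]

section Conj

variable {P P' : Matrix ι ι ℂ} (hP : P * P' = 1)
include hP

theorem cj_mul (A B : Matrix ι ι ℂ) : P * A * P' * (P * B * P') = P * (A * B) * P' := by
  have : P' * P = 1 := mul_eq_one_comm.mp hP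
  calc _ = P * A * (P' * P) * B * P' := by simp only [mul_assoc]
    _ = _ := by rw [this, mul_one, mul_assoc P]

theorem cj_pow (A : Matrix ι ι ℂ) (n : ℕ) : (P * A * P') ^ n = P * A ^ n * P' := by
  induction n with
  | zero => simp [hP]
  | succ n ih => rw [pow_succ, ih, cj_mul hP, pow_succ]

theorem cj_det (A : Matrix ι ι ℂ) : (P * A * P').det = A.det := by
  have := congrArg det hP
  rw [det_mul, det_one] at this
  rw [det_mul, det_mul]
  linear_combination A.det * this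

theorem cj_tr (A : Matrix ι ι ℂ) : (P * A * P').trace = A.trace := by
  rw [trace_mul_cycle, mul_eq_one_comm.mp hP, one_mul]

theorem cj_one {l : ι → ℂ} {n : ℕ} (h : (P * diagonal l * P') ^ n = 1) (i : ι) : l i ^ n = 1 := by
  have h' := mul_eq_one_comm.mp hP
  have h1 : P' * (P * diagonal l ^ n * P') * P = diagonal l ^ n := by
    rw [← mul_assoc, ← mul_assoc, h', one_mul, mul_assoc, h', mul_one]
  rw [← cj_pow hP, h, mul_one, h', diagonal_pow] at h1
  simpa using (congrFun (congrFun h1 i) i).symm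

end Conj

theorem co_diag {R T : Matrix ι ι ℂ} {n p : ℕ} (hn : n ≠ 0) (hp : p ≠ 0) (hc : n.Coprime p)
    (hR : R ^ n = 1) (hT : T ^ p = 1) (h : R * T = T * R) :
    ∃ (P P' : Matrix ι ι ℂ) (r t : ι → ℂ), P * P' = 1 ∧ R = P * diagonal r * P' ∧
      T = P * diagonal t * P' := by
  have h' : Commute R T := h
  obtain ⟨P, P', l, hP, hl⟩ := ex_diag (X := R * T) (mul_ne_zero hn hp) (by
    rw [h'.mul_pow, pow_mul, hR, mul_comm n, pow_mul, hT, one_pow, one_pow, one_mul])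
  obtain ⟨α, hα1, hα2⟩ := Nat.chineseRemainder hc 1 0
  obtain ⟨β, hβ1, hβ2⟩ := Nat.chineseRemainder hc 0 1
  refine ⟨P, P', l ^ α, l ^ β, hP, ?_, ?_⟩
  · rw [← diagonal_pow, ← cj_pow hP, ← hl, h'.mul_pow, pow_eq_pow_of_modEq hα1 hR,
      pow_eq_pow_of_modEq hα2 hT, pow_one, pow_zero, mul_one]
  · rw [← diagonal_pow, ← cj_pow hP, ← hl, h'.mul_pow, pow_eq_pow_of_modEq hβ1 hR,
      pow_eq_pow_of_modEq hβ2 hT, pow_one, pow_zero, one_mul]

/-- The projection onto an eigenspace. -/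
noncomputable def pr (p : ℕ) (ζ : ℂ) (T : Matrix ι ι ℂ) : Matrix ι ι ℂ :=
  (p : ℂ)⁻¹ • ∑ j ∈ range p, (ζ⁻¹ • T) ^ j

theorem pr_cj {P P' : Matrix ι ι ℂ} (hP : P * P' = 1) (p : ℕ) (ζ : ℂ) (T : Matrix ι ι ℂ) :
    pr p ζ (P * T * P') = P * pr p ζ T * P' := by
  simp only [pr, smul_pow, cj_pow hP, mul_smul_comm, smul_mul_assoc, mul_sum, sum_mul]

theorem pr_comm (p : ℕ) (ζ : ℂ) {R T : Matrix ι ι ℂ} (h : R * T = T * R) :
    R * pr p ζ T = pr p ζ T * R :=
  ((Commute.sum_right _ _ _ fun j _ => (Commute.smul_right h _).pow_right j).smul_right _).eq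

open Classical in
theorem pr_diag {p : ℕ} (hp : p ≠ 0) {ζ : ℂ} (hζ : ζ ^ p = 1) {t : ι → ℂ} (ht : ∀ i, t i ^ p = 1) :
    pr p ζ (diagonal t) = diagonal fun i => if t i = ζ then 1 else 0 := by
  have h0 : ζ ≠ 0 := fun e => by simp [e, hp] at hζ
  have hp' : (p : ℂ) ≠ 0 := by exact_mod_cast hp
  ext i j
  simp only [pr, ← diagonal_smul, diagonal_pow, Matrix.smul_apply, Matrix.sum_apply, diagonal_apply,
    Pi.pow_apply, Pi.smul_apply, smul_eq_mul]
  split_ifs with h1 h2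
  · rw [geo (by rw [mul_pow, ht, inv_pow, hζ]; simp), if_pos (by rw [h2, inv_mul_cancel₀ h0]),
      inv_mul_cancel₀ hp']
  · rw [geo (by rw [mul_pow, ht, inv_pow, hζ]; simp), if_neg, mul_zero]
    rw [inv_mul_eq_one₀ h0]
    exact Ne.symm h2
  · simp

/-- Determinant on the image of a projection. -/
noncomputable def dl (e X : Matrix ι ι ℂ) : ℂ := (X * e + (1 - e)).det

theorem dl_mul {e X Y : Matrix ι ι ℂ} (he : e * e = e) (hY : Y * e = e * Y) :
    dl e (X * Y) = dl e X * dl e Y := by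
  rw [dl, dl, dl, ← det_mul]
  congr 1
  have h1 : e * (Y * e) = Y * e := by rw [← mul_assoc, ← hY, mul_assoc, he]
  simp only [mul_add, add_mul, mul_sub, sub_mul, mul_assoc, h1, he, mul_one, one_mul]
  abel

theorem dl_cj {P P' : Matrix ι ι ℂ} (hP : P * P' = 1) (e X : Matrix ι ι ℂ) :
    dl (P * e * P') (P * X * P') = dl e X := by
  rw [dl, dl, ← cj_det hP (X * e + _), cj_mul hP, mul_add, add_mul, mul_sub, sub_mul, mul_one, hP]

theorem dl_diag (Q : ι → Prop) [DecidablePred Q] (r : ι → ℂ) :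
    dl (diagonal fun i => if Q i then 1 else 0) (diagonal r) = ∏ i, if Q i then r i else 1 := by
  rw [dl, diagonal_mul_diagonal, ← diagonal_one, diagonal_sub, diagonal_add, det_diagonal]
  exact prod_congr rfl fun i _ => by split_ifs <;> simp

theorem tr_pr {P P' : Matrix ι ι ℂ} (hP : P * P' = 1) {p : ℕ} (hp : p ≠ 0) {ζ : ℂ} (hζ : ζ ^ p = 1)
    {t : ι → ℂ} (ht : ∀ i, t i ^ p = 1) :
    (pr p ζ (P * diagonal t * P')).trace = ml t ζ := by
  rw [pr_cj hP, cj_tr hP, pr_diag hp hζ ht, trace_diagonal, ml, sum_boole]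

variable {E : Type*} [Group E] {θ : E →* Matrix ι ι ℂ} {z : E}

theorem even_card (h : XS z) (hs : SR z θ) {x : E} (h1 : x ≠ 1) (h2 : x ≠ z) :
    Even (Fintype.card ι) := by
  obtain ⟨y, hy⟩ : ∃ y, x * y ≠ y * x := by
    by_contra hc
    push Not at hc
    exact (h.nd x hc).elim h1 h2
  have e := congrArg (fun g => (θ g).det) ((h.comm x y).resolve_left hy)
  have h3 : (θ x).det * (θ y).det ≠ 0 := by
    rw [← det_mul, ← map_mul]
    exact left_ne_zero_of_mul_eq_one (b := (θ (x * y)⁻¹).det) (by rw [← det_mul, th_inv, det_one])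
  simp only [map_mul, det_mul, hs.hz, det_neg, det_one, mul_one] at e
  by_contra hc
  rw [(Nat.not_even_iff_odd.mp hc).neg_one_pow] at e
  exact h3 (by linear_combination e / 2)

theorem fpf_ext [Finite E] (h : XS z) {x : E} (h1 : x ≠ 1) (h2 : x ≠ z) {q : ℕ}
    (hp : (q + 1).Prime) (hodd : Odd (q + 1)) {a : MulAut E} (ha : a ^ (q + 1) = 1)
    (hf : ∀ j, ¬ (q + 1) ∣ j → ∀ x, (a ^ j) x = x → x = 1 ∨ x = z)
    {N S : Subgroup (MulAut E)} {n : ℕ} (hN2 : ∀ c ∈ N, c ^ 2 ^ n = 1)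
    (hNa : ∀ c ∈ N, c * a = a * c) {s : MulAut E} (hN : ∀ c ∈ N, s * c * s⁻¹ ∈ N)
    (hS : ∀ g ∈ S, ∃ c ∈ N, ∃ i : ℕ, g = c * s ^ i) {k : ℕ} (hk : ¬ (q + 1) ∣ k)
    (hsa : s⁻¹ * a * s = a ^ k) : Ext z S := by
  classical
  obtain ⟨d, θ, hs⟩ := exists_sr h
  have := hs.ne
  have hev := even_card h hs h1 h2
  obtain ⟨m, hm⟩ := hs.card_pow h
  have hp0 : q + 1 ≠ 0 := q.succ_ne_zero
  have hco : ∀ n, (2 ^ n).Coprime (q + 1) := fun n =>
    Nat.Coprime.pow_left n (Nat.coprime_two_left.mpr hodd)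
  have hnz : ∀ {c : ℂ} {X Y : Matrix (Fin d) (Fin d) ℂ}, c • X * Y = 1 → c ≠ 0 := by
    rintro c X Y e rfl
    exact zero_ne_one (hs.smul_inj (c := 0) (d := 1) (by simpa using e))
  obtain ⟨T, hT, hTp⟩ : ∃ T, IT θ a T ∧ T ^ (q + 1) = 1 := by
    obtain ⟨X, Y, hX, hY⟩ := hs.exists_it h a
    have h3 := hX.pow (q + 1)
    rw [ha] at h3
    obtain ⟨c, hc⟩ := hs.uniq IT.one (one_mul 1) h3
    have hc0 : c ≠ 0 := hnz (X := 1) (Y := Y ^ (q + 1)) (by
      rw [← hc, ← Commute.mul_pow (show Commute X Y from hY.trans (mul_eq_one_comm.mp hY).symm),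
        hY, one_pow])
    obtain ⟨t, ht⟩ := IsAlgClosed.exists_pow_nat_eq c⁻¹ q.succ_pos
    exact ⟨t • X, hX.smul t, by rw [smul_pow, hc, ht, smul_smul, inv_mul_cancel₀ hc0, one_smul]⟩
  have hTq : T * T ^ q = 1 := by rw [← pow_succ', hTp]
  have hcm : ∀ c ∈ N, ∀ X, IT θ c X → IsUnit X → X * T = T * X := fun c hc X hX hu => by
    obtain ⟨Y, hY⟩ := hu.exists_right_inv
    have h3 := (hX.mul hT).mul (hX.inv hY)
    rw [hNa c hc, mul_inv_cancel_right] at h3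
    obtain ⟨κ, hκ⟩ := hs.uniq hT hTq h3
    have h4 : κ ^ (q + 1) = 1 := hs.smul_inj (by
      rw [one_smul, ← hTp, ← smul_pow, ← hκ, cj_pow hY, hTp, mul_one, hY])
    have h5 := cj_det hY T
    have h6 : T.det ≠ 0 :=
      left_ne_zero_of_mul_eq_one (b := (T ^ q).det) (by rw [← det_mul, hTq, det_one])
    rw [hκ, det_smul, mul_eq_right₀ h6] at h5
    have h7 : κ = 1 := by
      have := pow_gcd_eq_one.mpr ⟨h5, h4⟩
      rwa [((hco m).coprime_dvd_left hm).gcd_eq_one, pow_one] at this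
    rw [h7, one_smul] at hκ
    conv_rhs => rw [← hκ, mul_assoc, mul_eq_one_comm.mp hY, mul_one]
  let Λ := Polynomial.nthRootsFinset (q + 1) (1 : ℂ)
  have hΛ : ∀ t, t ∈ Λ ↔ t ^ (q + 1) = 1 := fun t => Polynomial.mem_nthRootsFinset q.succ_pos 1
  have hΛc : Λ.card = q + 1 := (Complex.isPrimitiveRoot_exp _ hp0).card_nthRootsFinset
  have hpar : ∀ c ∈ N, ∀ (R P P' : Matrix (Fin d) (Fin d) ℂ) (r t : Fin d → ℂ), IT θ c R →
      R ^ 2 ^ n = 1 → P * P' = 1 → R = P * diagonal r * P' → T = P * diagonal t * P' →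
      ∑ i, ∑ i', (if r i = r i' then (if t i = t i' then (Λ.card : ℤ) else 0) - 1 else 0) =
        Λ.card - 1 := by
    intro c hc R P P' r t hR hRn hP hr ht
    have hr1 := cj_one hP (hr ▸ hRn)
    have ht1 := cj_one hP (ht ▸ hTp)
    rw [hΛc]
    push_cast
    rw [add_sub_cancel_right]
    refine pars (pow_ne_zero n two_ne_zero) hr1 ht1 fun u j hj => ?_
    have e1 : R ^ u * T ^ (j + 1) = P * diagonal (fun i => r i ^ u * t i ^ (j + 1)) * P' := by
      rw [hr, ht, cj_pow hP, cj_pow hP, cj_mul hP, diagonal_pow, diagonal_pow,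
        diagonal_mul_diagonal]; rfl
    have e2 := hs.tr_mul h ((hR.pow u).mul (hT.pow (j + 1)))
      (X' := P * diagonal (fun i => (r i ^ u * t i ^ (j + 1))⁻¹) * P') ?_ fun y hy => ?_
    · rwa [e1, cj_tr hP, cj_tr hP, trace_diagonal, trace_diagonal] at e2
    · rw [e1, cj_mul hP, diagonal_mul_diagonal, ← hP]
      have : (fun i => r i ^ u * t i ^ (j + 1) * (r i ^ u * t i ^ (j + 1))⁻¹) = fun _ => 1 :=
        funext fun i => mul_inv_cancel₀ (mul_ne_zero
          (pow_ne_zero _ fun e => by simpa [e] using hr1 i)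
          (pow_ne_zero _ fun e => by simpa [e] using ht1 i))
      rw [this, diagonal_one, mul_one]
    · have e3 : ((c ^ u * a ^ (j + 1)) ^ 2) y = y := by
        rw [pow_two, MulAut.mul_apply]
        rcases hy with e | e
        · rw [e, e]
        · rw [e, map_mul, h.fixz, e, ← mul_assoc, h.sq, one_mul]
      have e4 : ∀ v : ℕ, (((c ^ u * a ^ (j + 1)) ^ 2) ^ v) y = y := fun v => by
        induction v with
        | zero => rfl
        | succ v ih => rw [pow_succ, MulAut.mul_apply, e3, ih]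
      have e5 := e4 (2 ^ n)
      rw [← pow_mul, ← pow_succ', ((show Commute c a from hNa c hc).pow_pow u (j + 1)).mul_pow,
        ← pow_mul c, mul_comm u, pow_succ 2 n, mul_assoc, pow_mul c, hN2 c hc, one_pow, one_mul,
        ← pow_mul] at e5
      refine hf _ (fun hd => ?_) y e5
      rw [← pow_succ] at hd
      exact absurd (Nat.le_of_dvd j.succ_pos ((hco (n + 1)).symm.dvd_of_dvd_mul_right hd))
        (by omega)
  obtain ⟨P₀, P₀', t₀, hP₀, ht₀⟩ := ex_diag hp0 hTp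
  have ht₀1 := cj_one hP₀ (ht₀ ▸ hTp)
  obtain ⟨ζ, hζ, hζo⟩ := ex_odd t₀ (fun i => (hΛ _).mpr (ht₀1 i)) (hΛc ▸ hp.one_lt) (by
    simpa using hpar 1 N.one_mem 1 P₀ P₀' (fun _ => 1) t₀ IT.one (one_pow _) hP₀
      (by simp [hP₀]) ht₀)
  have hζ1 := (hΛ _).mp hζ
  set e := pr (q + 1) ζ T with he
  have he0 : e = P₀ * diagonal (fun i => if t₀ i = ζ then 1 else 0) * P₀' := by
    rw [he, ht₀, pr_cj hP₀, pr_diag hp0 hζ1 ht₀1]
  have hee : e * e = e := by
    rw [he0, cj_mul hP₀, diagonal_mul_diagonal]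
    congr 3
    ext i
    split_ifs <;> simp
  have htr : e.trace = ml t₀ ζ := by rw [he, ht₀, tr_pr hP₀ hp0 hζ1 ht₀1]
  obtain ⟨u, v, huv⟩ := zpow_bezout (m := ml t₀ ζ) (d := Fintype.card (Fin d))
    ((Nat.Coprime.pow_right m (Nat.coprime_two_right.mpr hζo)).coprime_dvd_right hm)
  obtain ⟨T₀, hT₀, hν, hq⟩ := of_nu h hs (N := N) (fun _ X => dl e X ^ u * X.det ^ v)
    (fun a ha b hb X Y hX hX' hY hY' => by
      rw [dl_mul hee (pr_comm _ _ (hcm b hb Y hY hY')), det_mul, mul_zpow, mul_zpow]; ring)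
    (fun c hc0 => by
      have e1 : c • (1 : Matrix (Fin d) (Fin d) ℂ) = P₀ * diagonal (fun _ => c) * P₀' := by
        rw [← smul_one_eq_diagonal, mul_smul_comm, smul_mul_assoc, mul_one, hP₀]
      have e2 : dl e (c • 1) = c ^ ml t₀ ζ := by
        rw [he0, e1, dl_cj hP₀, dl_diag, ← prod_filter, prod_const, ml]
      simp only [e2, det_smul, det_one, mul_one, huv c hc0])
  obtain ⟨U, U', hU, hU'⟩ := hs.exists_it h s
  have hU'' : U' * U = 1 := mul_eq_one_comm.mp hU'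
  obtain ⟨κ, hκ⟩ : ∃ κ : ℂ, U' * T * U = κ • T ^ k := by
    have h3 := ((hU.inv hU').mul hT).mul hU
    rw [hsa] at h3
    exact hs.uniq (hT.pow k) (X' := (T ^ q) ^ k) (by
      rw [← ((Commute.refl T).pow_right q).mul_pow, hTq, one_pow]) h3
  have hκ1 : κ ^ (q + 1) = 1 := hs.smul_inj (by
    have := cj_pow hU'' T (q + 1)
    rw [hκ, smul_pow, ← pow_mul, mul_comm k, pow_mul, hTp, one_pow, mul_one, hU''] at this
    rw [this, one_smul])
  suffices hsuf : ∀ c ∈ N, U * T₀ c = T₀ (s * c * s⁻¹) * U by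
    obtain ⟨T₁, hT₁⟩ := cyc_ext hs hT₀ hN hS hU hU' hsuf
    exact ⟨_, _, _, θ, T₁, hs, hT₁⟩
  intro c hc
  have hRu : IsUnit (T₀ c) := IsUnit.of_mul_eq_one _ (hT₀.inv hc)
  have hRn : T₀ c ^ 2 ^ n = 1 := by rw [← hT₀.pow hc, hN2 c hc, hT₀.one]
  rw [← hq _ (hN c hc) (U * T₀ c * U') ((hU.mul (hT₀.it c hc)).mul (hU.inv hU'))
    (((IsUnit.of_mul_eq_one _ hU').mul hRu).mul (IsUnit.of_mul_eq_one _ hU'')) ?_, mul_assoc, hU'',
    mul_one]
  rw [← hν c hc, cj_det hU']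
  congr 2
  have e1 : e = U * (U' * e * U) * U' := by
    rw [← mul_assoc, ← mul_assoc, hU', one_mul, mul_assoc, hU', mul_one]
  obtain ⟨P, P', r, t, hP, hr, ht⟩ := co_diag (pow_ne_zero n two_ne_zero) hp0 (hco n) hRn hTp
    (hcm c hc _ (hT₀.it c hc) hRu)
  have ht1 := cj_one hP (ht ▸ hTp)
  have ht2 : ∀ i, (κ * t i ^ k) ^ (q + 1) = 1 := fun i => by
    rw [mul_pow, hκ1, ← pow_mul, mul_comm k, pow_mul, ht1, one_pow, one_mul]
  have e2 : U' * e * U = pr (q + 1) ζ (P * diagonal (fun i => κ * t i ^ k) * P') := by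
    rw [he, ← pr_cj hU'', hκ, ht, cj_pow hP, diagonal_pow, ← smul_mul_assoc, ← mul_smul_comm,
      ← diagonal_smul]; rfl
  have e3 : ml (fun i => κ * t i ^ k) ζ = ml t₀ ζ := by
    have := tr_pr hP hp0 hζ1 ht2
    rw [← e2, cj_tr hU'', htr] at this
    exact_mod_cast this.symm
  have e4 : ml t ζ = ml t₀ ζ := by
    have := tr_pr hP hp0 hζ1 ht1
    rw [← ht, ← he, htr] at this
    exact_mod_cast this.symm
  obtain ⟨i₀, hi₀⟩ := card_pos.mp (e3 ▸ hζo.pos : 0 < ml (fun i => κ * t i ^ k) ζ)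
  have hi₁ : κ * t i₀ ^ k = ζ := (mem_filter.mp hi₀).2
  have e5 : ∀ i, κ * t i ^ k = ζ ↔ t i = t i₀ := fun i => ⟨fun hi => by
    have h0 : t i₀ ≠ 0 := fun e => by simpa [e] using ht1 i₀
    have h3 : (t i / t i₀) ^ k = 1 := by
      rw [div_pow, mul_left_cancel₀ (fun e => by simp [e] at hκ1) (hi.trans hi₁.symm),
        div_self (pow_ne_zero _ h0)]
    have := pow_gcd_eq_one.mpr ⟨(by rw [div_pow, ht1, ht1, div_one] : (t i / t i₀) ^ (q + 1) = 1), h3⟩
    rwa [((Nat.Prime.coprime_iff_not_dvd hp).mpr hk).gcd_eq_one, pow_one,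
      div_eq_one_iff_eq h0] at this, fun hi => hi ▸ hi₁⟩
  have e6 : ml t (t i₀) = ml t₀ ζ := by
    rw [← e3]
    simp only [ml, e5]
  conv_lhs => rw [e1, dl_cj hU', e2, pr_cj hP, pr_diag hp0 hζ1 ht2, hr, dl_cj hP, dl_diag]
  rw [he, ht, pr_cj hP, pr_diag hp0 hζ1 ht1, hr, dl_cj hP, dl_diag]
  simp only [e5]
  exact prod_eq r t (fun i => (hΛ _).mpr (ht1 i)) (hΛc ▸ hodd) hev
    (hpar c hc _ P P' r t (hT₀.it c hc) hRn hP hr ht) ((hΛ _).mpr (ht1 _)) (e6 ▸ hζo) hζ (e4 ▸ hζo)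

end Cfsg.Agent.H15D
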