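import Cfsg.Agent.H15D.D

/-! Dade's extension theorem, part E: central products and tensor induction. -/

set_option autoImplicit false
set_option linter.unusedSectionVars false

namespace Cfsg.Agent.H15D

open Matrix
open scoped Kronecker

variable {E : Type*} [Group E] {z : E}

/-- Extension over `S` for an invariant subgroup `D`. -/
def RExt {D : Subgroup E} (hz : z ∈ D) (S : Subgroup (MulAut E)) : Prop :=
  ∃ (ι : Type) (_ : Fintype ι) (_ : DecidableEq ι) (θ : D →* Matrix ι ι ℂ)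
    (T : MulAut E → Matrix ι ι ℂ), SR (⟨z, hz⟩ : D) θ ∧ T 1 = 1 ∧
      (∀ a ∈ S, ∀ b ∈ S, T (a * b) = T a * T b) ∧
      ∀ a ∈ S, ∀ x y : D, (y : E) = a x → T a * θ x = θ y * T a

theorem kron (h : XS z) {D₁ D₂ : Subgroup E} (hz₁ : z ∈ D₁) (hz₂ : z ∈ D₂)
    (hc : ∀ a ∈ D₁, ∀ b ∈ D₂, a * b = b * a) (hg : ∀ x, ∃ a ∈ D₁, ∃ b ∈ D₂, x = a * b)
    {ι κ : Type} [Fintype ι] [DecidableEq ι] [Fintype κ] [DecidableEq κ]
    {θ₁ : D₁ →* Matrix ι ι ℂ} {θ₂ : D₂ →* Matrix κ κ ℂ} (h₁ : SR (⟨z, hz₁⟩ : D₁) θ₁)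
    (h₂ : SR (⟨z, hz₂⟩ : D₂) θ₂) :
    ∃ θ : E →* Matrix (ι × κ) (ι × κ) ℂ, SR z θ ∧
      ∀ (a : D₁) (b : D₂), θ (a * b) = θ₁ a ⊗ₖ θ₂ b := by
  have key : ∀ (a a' : D₁) (b b' : D₂), (a : E) * b = a' * b' →
      θ₁ a ⊗ₖ θ₂ b = θ₁ a' ⊗ₖ θ₂ b' := fun a a' b b' e => by
    have e1 : ((a'⁻¹ * a : D₁) : E) = (b' * b⁻¹ : D₂) := by
      simp only [Subgroup.coe_mul, Subgroup.coe_inv]
      rw [inv_mul_eq_iff_eq_mul, ← mul_assoc, ← e, mul_inv_cancel_right]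
    have e2 := h.nd ((a'⁻¹ * a : D₁) : E) fun y => by
      obtain ⟨u, hu, v, hv, rfl⟩ := hg y
      have f1 := hc u hu _ (b' * b⁻¹).2
      rw [← e1] at f1
      rw [← mul_assoc, ← f1, mul_assoc, hc _ (a'⁻¹ * a).2 v hv, mul_assoc]
    rcases e2 with e2 | e2
    · have f1 : a'⁻¹ * a = 1 := Subtype.ext e2
      have f2 : b' * b⁻¹ = 1 := Subtype.ext (e1.symm.trans e2)
      rw [inv_mul_eq_one.mp f1, mul_inv_eq_one.mp f2]
    · have f1 : a'⁻¹ * a = ⟨z, hz₁⟩ := Subtype.ext e2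
      have f2 : b' * b⁻¹ = ⟨z, hz₂⟩ := Subtype.ext (e1.symm.trans e2)
      rw [inv_mul_eq_iff_eq_mul.mp f1, mul_inv_eq_iff_eq_mul.mp f2, map_mul, map_mul, h₁.hz, h₂.hz]
      ext i j
      simp [kroneckerMap_apply]
  choose f hf g hg' hfg using hg
  have key2 : ∀ (a : D₁) (b : D₂), θ₁ ⟨f (a * b), hf _⟩ ⊗ₖ θ₂ ⟨g (a * b), hg' _⟩ = θ₁ a ⊗ₖ θ₂ b :=
    fun a b => key _ _ _ _ (hfg _).symm
  let θ : E →* Matrix (ι × κ) (ι × κ) ℂ :=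
    { toFun := fun x => θ₁ ⟨f x, hf x⟩ ⊗ₖ θ₂ ⟨g x, hg' x⟩
      map_one' := by
        have := key2 1 1
        simpa using this
      map_mul' := fun x y => by
        rw [← mul_kronecker_mul, ← map_mul, ← map_mul]
        refine key _ _ _ _ ?_
        simp only [Subgroup.coe_mul]
        rw [← hfg, mul_assoc, ← mul_assoc (f y), hc _ (hf y) _ (hg' x)]
        conv_lhs => rw [hfg x, hfg y]
        simp only [mul_assoc] }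
  have hθ : ∀ (a : D₁) (b : D₂), θ (a * b) = θ₁ a ⊗ₖ θ₂ b := key2
  refine ⟨θ, ⟨?_, ?_, fun M hM => ?_⟩, hθ⟩
  · have := h₁.ne
    have := h₂.ne
    infer_instance
  · have := hθ ⟨z, hz₁⟩ 1
    simp only [OneMemClass.coe_one, mul_one, h₁.hz, map_one] at this
    rw [this, ← one_kronecker_one]
    ext i j
    simp only [kroneckerMap_apply, Matrix.neg_apply, neg_mul]
  · have e1 : ∀ b b' : κ, ∃ c : ℂ, (of fun a a' => M (a, b) (a', b')) = c • (1 : Matrix ι ι ℂ) :=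
      fun b b' => h₁.schur _ fun x => by
        have := hM (x * (1 : D₂))
        rw [hθ, map_one] at this
        ext a a'
        have := congrFun (congrFun this (a, b)) (a', b')
        simpa [Matrix.mul_apply, Fintype.sum_prod_type, kroneckerMap_apply, one_apply] using this
    have e2 : ∀ a a' : ι, ∃ c : ℂ, (of fun b b' => M (a, b) (a', b')) = c • (1 : Matrix κ κ ℂ) :=
      fun a a' => h₂.schur _ fun x => by
        have := hM ((1 : D₁) * x)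
        rw [hθ, map_one] at this
        ext b b'
        have := congrFun (congrFun this (a, b)) (a', b')
        simpa [Matrix.mul_apply, Fintype.sum_prod_type, kroneckerMap_apply, one_apply] using this
    choose c hc using e1
    choose c' hc' using e2
    obtain ⟨a₀⟩ := h₁.ne
    obtain ⟨b₀⟩ := h₂.ne
    refine ⟨c b₀ b₀, ?_⟩
    ext ⟨a, b⟩ ⟨a', b'⟩
    have f1 := congrFun (congrFun (hc b b') a) a'
    have f2 := congrFun (congrFun (hc' a a') b) b'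
    have f3 := congrFun (congrFun (hc b₀ b₀) a) a
    have f4 := congrFun (congrFun (hc' a a) b₀) b₀
    simp only [of_apply, Matrix.smul_apply, one_apply, smul_eq_mul, if_true, mul_one,
      Prod.mk.injEq] at f1 f2 f3 f4 ⊢
    by_cases e : a = a'
    · subst e
      rw [f2, ← f4, f3]
      simp
    · simp [f1, e]

theorem prod_ext (h : XS z) {D₁ D₂ : Subgroup E} (hz₁ : z ∈ D₁) (hz₂ : z ∈ D₂)
    (hc : ∀ a ∈ D₁, ∀ b ∈ D₂, a * b = b * a) (hg : ∀ x, ∃ a ∈ D₁, ∃ b ∈ D₂, x = a * b)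
    {S : Subgroup (MulAut E)} (hS₁ : ∀ s ∈ S, ∀ x ∈ D₁, s x ∈ D₁)
    (hS₂ : ∀ s ∈ S, ∀ x ∈ D₂, s x ∈ D₂) (h₁ : RExt hz₁ S) (h₂ : RExt hz₂ S) : Ext z S := by
  obtain ⟨ι, _, _, θ₁, T₁, s₁, o₁, m₁, i₁⟩ := h₁
  obtain ⟨κ, _, _, θ₂, T₂, s₂, o₂, m₂, i₂⟩ := h₂
  obtain ⟨θ, hs, hθ⟩ := kron h hz₁ hz₂ hc hg s₁ s₂
  refine ⟨_, _, _, θ, fun a => T₁ a ⊗ₖ T₂ a, hs, ?_, fun a ha b hb => ?_, fun s hs x => ?_⟩
  · simp [o₁, o₂]
  · simp only [m₁ a ha b hb, m₂ a ha b hb, mul_kronecker_mul]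
  · obtain ⟨a, ha, b, hb, rfl⟩ := hg x
    rw [map_mul s, hθ ⟨a, ha⟩ ⟨b, hb⟩, hθ ⟨_, hS₁ s hs a ha⟩ ⟨_, hS₂ s hs b hb⟩,
      ← mul_kronecker_mul, ← mul_kronecker_mul, i₁ s hs ⟨a, ha⟩ ⟨_, hS₁ s hs a ha⟩ rfl,
      i₂ s hs ⟨b, hb⟩ ⟨_, hS₂ s hs b hb⟩ rfl]

/-- The swap matrix. -/
def sw (ι : Type) [DecidableEq ι] : Matrix (ι × ι) (ι × ι) ℂ :=
  of fun i j => if i = j.swap then 1 else 0

theorem sw_kron {ι : Type} [Fintype ι] [DecidableEq ι] (A B : Matrix ι ι ℂ) :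
    sw ι * (A ⊗ₖ B) = (B ⊗ₖ A) * sw ι := by
  ext ⟨a, b⟩ ⟨c, d⟩
  rw [Matrix.mul_apply, Matrix.mul_apply, Finset.sum_eq_single (b, a), Finset.sum_eq_single (d, c)]
  · simp [sw, mul_comm]
  · rintro ⟨x, y⟩ _ hne
    simp [sw, hne]
  · simp
  · rintro ⟨x, y⟩ _ hne
    have : ¬ (a = y ∧ b = x) := fun e => hne (by rw [e.1, e.2])
    simp [sw, this]
  · simp

theorem sw_sq {ι : Type} [Fintype ι] [DecidableEq ι] : sw ι * sw ι = 1 := by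
  ext ⟨a, b⟩ ⟨c, d⟩
  rw [Matrix.mul_apply, Finset.sum_eq_single (b, a)]
  · simp [sw, one_apply, and_comm]
  · rintro ⟨x, y⟩ _ hne
    have : ¬ (a = y ∧ b = x) := fun e => hne (by rw [e.1, e.2])
    simp [sw, this]
  · simp

theorem swap_ext [Finite E] (h : XS z) {D₁ D₂ : Subgroup E} (hz₁ : z ∈ D₁)
    (hc : ∀ a ∈ D₁, ∀ b ∈ D₂, a * b = b * a) (hg : ∀ x, ∃ a ∈ D₁, ∃ b ∈ D₂, x = a * b)
    {N S : Subgroup (MulAut E)} {s : MulAut E} (hD : ∀ y, y ∈ D₂ ↔ s⁻¹ y ∈ D₁)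
    (hN : ∀ c ∈ N, ∀ x ∈ D₁, c x ∈ D₁) (h2 : s * s ∈ N) (hs₁ : ∀ c ∈ N, s * c * s⁻¹ ∈ N)
    (hs₂ : ∀ c ∈ N, s⁻¹ * c * s ∈ N) (hS : ∀ g ∈ S, g ∈ N ∨ g * s⁻¹ ∈ N) (h₁ : RExt hz₁ N) :
    Ext z S := by
  obtain ⟨ι, _, _, θ₁, T, s₁, o₁, m₁, i₁⟩ := h₁
  have hz₂ : z ∈ D₂ := (hD z).mpr (by rwa [h.fixz])
  let φ : D₂ →* D₁ := ((s⁻¹).toMonoidHom.comp D₂.subtype).codRestrict D₁ fun y => (hD y).mp y.2
  have hφ : ∀ y, (φ y : E) = s⁻¹ y := fun y => rfl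
  have s₂ : SR (⟨z, hz₂⟩ : D₂) (θ₁.comp φ) := ⟨s₁.ne, by
    rw [← s₁.hz, MonoidHom.comp_apply]
    congr 1
    exact Subtype.ext (h.fixz s⁻¹), fun M hM => s₁.schur M fun x => by
      have := hM ⟨s x, (hD _).mpr (by simp)⟩
      have e : φ ⟨s x, (hD _).mpr (by simp)⟩ = x := Subtype.ext (by simp [hφ])
      rwa [MonoidHom.comp_apply, e] at this⟩
  obtain ⟨θ, hs, hθ⟩ := kron h hz₁ hz₂ hc hg s₁ s₂
  have hN₂ : ∀ c ∈ N, ∀ y ∈ D₂, c y ∈ D₂ := fun c hc y hy => (hD _).mpr (by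
    simpa using hN _ (hs₂ c hc) _ ((hD y).mp hy))
  have hL : Lift θ N fun a => T a ⊗ₖ T (s⁻¹ * a * s) := by
    refine ⟨by simp [o₁], fun a ha b hb => ?_, fun c hc x => ?_⟩
    · have e : s⁻¹ * (a * b) * s = s⁻¹ * a * s * (s⁻¹ * b * s) := by group
      simp only [e, m₁ a ha b hb, m₁ _ (hs₂ a ha) _ (hs₂ b hb), mul_kronecker_mul]
    · obtain ⟨a, ha, b, hb, rfl⟩ := hg x
      rw [map_mul c, hθ ⟨a, ha⟩ ⟨b, hb⟩, hθ ⟨_, hN c hc a ha⟩ ⟨_, hN₂ c hc b hb⟩,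
        ← mul_kronecker_mul, ← mul_kronecker_mul, i₁ c hc ⟨a, ha⟩ ⟨_, hN c hc a ha⟩ rfl,
        MonoidHom.comp_apply, MonoidHom.comp_apply,
        i₁ _ (hs₂ c hc) (φ ⟨b, hb⟩) (φ ⟨_, hN₂ c hc b hb⟩) (by simp [hφ])]
  have hTi : T (s * s) * T (s * s)⁻¹ = 1 := by
    rw [← m₁ _ h2 _ (inv_mem h2), mul_inv_cancel, o₁]
  obtain ⟨T₁, hT₁⟩ := cyc_ext (S := S) hs hL hs₁ (fun g hg => by
      rcases hS g hg with e | e
      · exact ⟨g, e, 0, by simp⟩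
      · exact ⟨_, e, 1, by simp⟩)
    (U := (T (s * s) ⊗ₖ 1) * sw ι) (U' := sw ι * (T (s * s)⁻¹ ⊗ₖ 1)) (fun x => by
      obtain ⟨a, ha, b, hb, rfl⟩ := hg x
      have ha' : s a ∈ D₂ := (hD _).mpr (by simpa using ha)
      have hb' : s b ∈ D₁ := by simpa using hN _ h2 _ ((hD b).mp hb)
      have e : φ ⟨_, ha'⟩ = ⟨a, ha⟩ := Subtype.ext (by simp [hφ])
      rw [map_mul s, ← hc _ hb' _ ha', hθ ⟨a, ha⟩ ⟨b, hb⟩, hθ ⟨_, hb'⟩ ⟨_, ha'⟩, mul_assoc, sw_kron,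
        ← mul_assoc, ← mul_assoc, ← mul_kronecker_mul, ← mul_kronecker_mul, MonoidHom.comp_apply,
        MonoidHom.comp_apply, e, i₁ _ h2 (φ ⟨b, hb⟩) ⟨_, hb'⟩ (by simp [hφ]), one_mul, mul_one])
    (by rw [mul_assoc, ← mul_assoc (sw ι), sw_sq, one_mul, ← mul_kronecker_mul, hTi, one_mul,
      one_kronecker_one])
    (fun c hc => by
      have e1 : s⁻¹ * (s * c * s⁻¹) * s = c := by group
      have e2 : s * s * (s⁻¹ * c * s) = s * c * s⁻¹ * (s * s) := by group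
      rw [mul_assoc, sw_kron, ← mul_assoc, ← mul_assoc, ← mul_kronecker_mul, ← mul_kronecker_mul,
        e1, ← m₁ _ h2 _ (hs₂ c hc), ← m₁ _ (hs₁ c hc) _ h2, e2, one_mul, mul_one])
  exact ⟨_, _, _, θ, T₁, hs, hT₁⟩

end Cfsg.Agent.H15D
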