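import Cfsg.Agent.H15D.E
import Cfsg.Agent.H10.Xsp
import Cfsg.Agent.S0058
import Cfsg.Agent.FT

/-! Dade's extension theorem, part F: invariant decompositions. -/

set_option autoImplicit false
set_option linter.unusedSectionVars false

namespace Cfsg.Agent.H15D

open Subgroup

variable {E : Type*} [Group E] {z : E}

/-- The centre of `D` is inside `{1, z}`. -/
def ND (z : E) (D : Subgroup E) : Prop := ∀ x ∈ D, (∀ y ∈ D, x * y = y * x) → x = 1 ∨ x = z

/-- Common fixed points. -/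
def Fx (B : Subgroup (MulAut E)) : Subgroup E where
  carrier := {x | ∀ b ∈ B, b x = x}
  one_mem' b _ := map_one b
  mul_mem' hx hy b hb := by rw [map_mul, hx b hb, hy b hb]
  inv_mem' hx b hb := by rw [map_inv, hx b hb]

/-- The inductive claim. -/
def QQ (z : E) : Prop :=
  ∀ K S : Subgroup (MulAut E), (∀ s ∈ S, ∀ k ∈ K, s * k * s⁻¹ ∈ K) → Odd (Nat.card K) →
    IsPGroup 2 S → (∀ x ∈ Fx K, x = 1 ∨ x = z) → Ext z S

/-- Automorphisms stabilising `D`. -/
def St (D : Subgroup E) : Subgroup (MulAut E) where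
  carrier := {φ | ∀ x, φ x ∈ D ↔ x ∈ D}
  one_mem' _ := Iff.rfl
  mul_mem' ha hb x := (ha _).trans (hb x)
  inv_mem' {a} ha x := by simpa using (ha (a⁻¹ x)).symm

theorem le_St {D : Subgroup E} {K : Subgroup (MulAut E)} (h : ∀ φ ∈ K, ∀ x ∈ D, φ x ∈ D) :
    K ≤ St D := fun φ hφ x => ⟨fun hx => by simpa using h _ (inv_mem hφ) _ hx, h φ hφ x⟩

/-- Restriction of automorphisms. -/
def res (D : Subgroup E) : St D →* MulAut D where
  toFun φ :=
    { toFun := fun x => ⟨φ.1 x, (φ.2 x).mpr x.2⟩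
      invFun := fun x => ⟨φ.1⁻¹ x, ((φ⁻¹).2 x).mpr x.2⟩
      left_inv := fun x => Subtype.ext (by simp)
      right_inv := fun x => Subtype.ext (by simp)
      map_mul' := fun x y => Subtype.ext (by simp) }
  map_one' := rfl
  map_mul' _ _ := rfl

theorem rext [Finite E] {D : Subgroup E} {hz : z ∈ D} (hq : QQ (⟨z, hz⟩ : D))
    {K S : Subgroup (MulAut E)} (hK : ∀ φ ∈ K, ∀ x ∈ D, φ x ∈ D) (hS : ∀ φ ∈ S, ∀ x ∈ D, φ x ∈ D)
    (hn : ∀ s ∈ S, ∀ k ∈ K, s * k * s⁻¹ ∈ K) (ho : Odd (Nat.card K)) (h2 : IsPGroup 2 S)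
    (hf : ∀ x ∈ D, x ∈ Fx K → x = 1 ∨ x = z) : RExt hz S := by
  classical
  obtain ⟨ι, _, _, θ, T, hs, hT⟩ := hq ((K.subgroupOf (St D)).map (res D))
    ((S.subgroupOf (St D)).map (res D))
    (by
      rintro _ ⟨s, hs, rfl⟩ _ ⟨k, hk, rfl⟩
      exact ⟨s * k * s⁻¹, hn _ hs _ hk, by simp⟩)
    (ho.of_dvd_nat ((card_map_dvd _ _).trans
      (card_comap_dvd_of_injective _ _ (St D).subtype_injective)))
    (h2.comap_subtype.map _)
    (fun x hx => (hf x x.2 fun k hk =>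
        congrArg Subtype.val (hx _ ⟨⟨k, le_St hK hk⟩, hk, rfl⟩)).imp Subtype.ext Subtype.ext)
  refine ⟨ι, _, _, θ, fun φ => if hh : φ ∈ St D then T (res D ⟨φ, hh⟩) else 1, hs, ?_,
    fun a ha b hb => ?_, fun a ha x y e => ?_⟩
  · simp only [dif_pos (St D).one_mem]
    exact hT.one
  · simp only [dif_pos (le_St hS ha), dif_pos (le_St hS hb), dif_pos (le_St hS (mul_mem ha hb))]
    exact hT.mul _ ⟨⟨a, _⟩, ha, rfl⟩ _ ⟨⟨b, _⟩, hb, rfl⟩
  · simp only [dif_pos (le_St hS ha)]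
    rw [hT.it _ ⟨⟨a, _⟩, ha, rfl⟩ x, show y = res D ⟨a, le_St hS ha⟩ x from Subtype.ext e]

namespace XS

variable (h : XS z)
include h

theorem sub {D : Subgroup E} (hz : z ∈ D) (hD : ND z D) : XS (⟨z, hz⟩ : D) where
  ne e := h.ne (congrArg Subtype.val e)
  sq := Subtype.ext h.sq
  cen x := Subtype.ext (h.cen x)
  comm x y := by simpa [Subtype.ext_iff] using h.comm x y
  nd x hx := (hD x x.2 fun y hy => congrArg Subtype.val (hx ⟨y, hy⟩)).imp Subtype.ext Subtype.ext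

theorem ord : orderOf z = 2 :=
  haveI : Fact (Nat.Prime 2) := ⟨Nat.prime_two⟩
  orderOf_eq_prime (by rw [pow_two, h.sq]) h.ne

theorem symT : H10.SymT (⊤ : Subgroup E) z where
  ord := h.ord
  mem := mem_top z
  cent q _ := (h.cen q).symm
  sq q _ := (H10.mem_zpowers_two h.ord).mpr (h.sq_mem q)
  uniq x _ hx _ := (H10.mem_zpowers_two h.ord).mpr (h.nd x fun y => (hx y (mem_top y)).symm)

theorem normal {D : Subgroup E} (hz : z ∈ D) : D.Normal :=
  normalizer_eq_top_iff.mp (top_le_iff.mp (h.symT.le_normalizer_of_mem le_top hz))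

theorem cz {x : E} (hx : x = 1 ∨ x = z) (y : E) : x * y = y * x := by
  rcases hx with rfl | rfl
  · simp
  · exact h.cen y

theorem mem_of {D : Subgroup E} (hz : z ∈ D) {x : E} (hx : x = 1 ∨ x = z) : x ∈ D := by
  rcases hx with rfl | rfl
  · exact D.one_mem
  · exact hz

theorem fact {D D' : Subgroup E} (hz : z ∈ D) {x : E} (hx : x ∈ D ⊔ D') :
    ∃ a ∈ D, ∃ b ∈ D', x = a * b := by
  have := h.normal hz
  obtain ⟨a, ha, b, hb, e⟩ := mem_sup_of_normal_left.mp hx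
  exact ⟨a, ha, b, hb, e.symm⟩

theorem dec [Finite E] {D : Subgroup E} (hz : z ∈ D) (hD : ND z D) (x : E) :
    ∃ a ∈ D, ∃ b ∈ centralizer (D : Set E), x = a * b := by
  have hZ : ⊤ ⊓ centralizer ((⊤ : Subgroup E) : Set E) ≤ D := fun y hy =>
    h.mem_of hz (h.nd y fun w => (hy.2 w (mem_top w)).symm)
  refine h.fact hz ((h.symT.dc (K := D ⊔ centralizer (D : Set E)) le_top).trans
    (sup_le le_rfl (hZ.trans le_sup_left)) ⟨mem_top x, fun y hy => h.cz ?_ x⟩)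
  have h1 : y ∈ D := (h.symT.dc (K := D) le_top).trans (sup_le le_rfl hZ)
    ⟨mem_top y, fun w hw => hy.2 w (mem_sup_right hw.2)⟩
  exact hD y h1 fun w hw => (hy.2 w (mem_sup_left hw)).symm

theorem nd_sup {D D' : Subgroup E} (hz : z ∈ D) (hD : ND z D) (hD' : ND z D')
    (hc : ∀ a ∈ D, ∀ b ∈ D', a * b = b * a) : ND z (D ⊔ D') := fun x hx hy => by
  obtain ⟨a, ha, b, hb, rfl⟩ := h.fact hz hx
  refine h.nd _ fun y => ?_
  have h1 := hD a ha fun w hw => by
    have := hy w (mem_sup_left hw)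
    rwa [mul_assoc, ← hc w hw b hb, ← mul_assoc, ← mul_assoc, mul_left_inj] at this
  have h2 := hD' b hb fun w hw => by
    have := hy w (mem_sup_right hw)
    rwa [← mul_assoc, ← hc a ha w hw, mul_assoc, mul_assoc, mul_right_inj] at this
  rw [mul_assoc, h.cz h2, ← mul_assoc, h.cz h1, mul_assoc]

theorem z_mem (B : Subgroup (MulAut E)) : z ∈ Fx B := fun b _ => h.fixz b

theorem norm [Finite E] {p : ℕ} [hp : Fact p.Prime] (hp2 : p ≠ 2) {B : Subgroup (MulAut E)}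
    (hB : IsPGroup p B) {D : Subgroup E} (hD : ∀ b ∈ B, ∀ x ∈ D, b x ∈ D) {x y : E}
    (hx : x ∈ Fx B) (hy : y ∈ D) (hne : x * y ≠ y * x) :
    ∃ w ∈ D, w ∈ Fx B ∧ x * w ≠ w * x := by
  let Y : SubMulAction B E :=
    { carrier := {w | w ∈ D ∧ x * w ≠ w * x}
      smul_mem' := fun b w hw => ⟨hD b b.2 w hw.1, fun e => hw.2 (b.1.injective (by
        rw [map_mul, map_mul, hx b b.2]; exact e))⟩ }
  have key := fun w => h.symT.comm_mul_iff (mem_top x) (mem_top y) (mem_top w)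
  let e : ↥(D ⊓ centralizer {x}) ≃ Y :=
    { toFun := fun w => ⟨y * w, mul_mem hy w.2.1, fun e =>
        hne (((key w).mp e).mpr (mem_centralizer_singleton_iff.mp w.2.2).symm)⟩
      invFun := fun w => ⟨y⁻¹ * w, D.mul_mem (D.inv_mem hy) w.2.1, by
        have := key (y⁻¹ * w)
        rw [mul_inv_cancel_left] at this
        by_contra hc
        exact w.2.2 (this.mpr ⟨fun e => absurd e hne,
          fun e => absurd (mem_centralizer_singleton_iff.mpr e.symm) hc⟩)⟩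
      left_inv := fun w => Subtype.ext (by simp)
      right_inv := fun w => Subtype.ext (by simp) }
  have : Fact (Nat.Prime 2) := ⟨Nat.prime_two⟩
  obtain ⟨n, hn⟩ := IsPGroup.iff_card.mp (h.isPGroup.to_subgroup (D ⊓ centralizer {x}))
  obtain ⟨w, hw⟩ := hB.nonempty_fixed_point_of_prime_not_dvd_card Y (by
    rw [← Nat.card_congr e, hn]
    exact fun hd => hp2 ((Nat.prime_dvd_prime_iff_eq hp.out Nat.prime_two).mp
      (hp.out.dvd_of_dvd_pow hd)))
  exact ⟨w, w.2.1, fun b hb => congrArg Subtype.val (hw ⟨b, hb⟩), w.2.2⟩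

theorem nd_fx [Finite E] {p : ℕ} [hp : Fact p.Prime] (hp2 : p ≠ 2) {B : Subgroup (MulAut E)}
    (hB : IsPGroup p B) : ND z (Fx B) := fun x hx hy => h.nd x fun y => by
  by_contra hc
  obtain ⟨w, -, hw, hw'⟩ := h.norm hp2 hB (D := ⊤) (fun _ _ _ _ => mem_top _) hx (mem_top y) hc
  exact hw' (hy w hw)

theorem split [Finite E]
    (ih : ∀ (D : Subgroup E) (hz : z ∈ D), D ≠ ⊤ → ND z D → QQ (⟨z, hz⟩ : D))
    {K S : Subgroup (MulAut E)} (hn : ∀ s ∈ S, ∀ k ∈ K, s * k * s⁻¹ ∈ K) (ho : Odd (Nat.card K))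
    (h2 : IsPGroup 2 S) (hf : ∀ x ∈ Fx K, x = 1 ∨ x = z) {D : Subgroup E} (hz : z ∈ D)
    (hD : ND z D) (ht : D ≠ ⊤) {x : E} (hx : x ∈ D) (hx' : ¬ (x = 1 ∨ x = z))
    (hK : ∀ φ ∈ K, ∀ x ∈ D, φ x ∈ D) (hS : ∀ φ ∈ S, ∀ x ∈ D, φ x ∈ D) : Ext z S := by
  have hz' : z ∈ centralizer (D : Set E) := fun y _ => (h.cen y).symm
  have hi : ∀ {L : Subgroup (MulAut E)}, (∀ φ ∈ L, ∀ x ∈ D, φ x ∈ D) →
      ∀ φ ∈ L, ∀ x ∈ centralizer (D : Set E), φ x ∈ centralizer (D : Set E) :=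
    fun hL φ hφ x hx y hy => by
      simpa using congrArg φ (hx _ (hL _ (inv_mem hφ) y hy))
  have hD' : ND z (centralizer (D : Set E)) := fun x hx hy => h.nd x fun y => by
    obtain ⟨a, ha, b, hb, rfl⟩ := h.dec hz hD y
    rw [← mul_assoc, ← hx a ha, mul_assoc, hy b hb, mul_assoc]
  exact prod_ext h hz hz' (fun a ha b hb => hb a ha) (h.dec hz hD) hS (hi hS)
    (rext (ih D hz ht hD) hK hS hn ho h2 fun x _ => hf x)
    (rext (ih _ hz' (fun e => hx' (h.nd x fun y => (e ▸ mem_top y : y ∈ centralizer _) x hx)) hD')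
      (hi hK) (hi hS) hn ho h2 fun x _ => hf x)

end XS

theorem gen_fix {W : Type*} [Group W] [Finite W] {A : Subgroup (MulAut W)}
    (hab : ∀ a ∈ A, ∀ b ∈ A, a * b = b * a) (hnc : ¬ IsCyclic A)
    (hcop : (Nat.card A).Coprime (Nat.card W)) {L : Subgroup W}
    (hL : ∀ e ∈ A, e ≠ 1 → ∀ x, e x = x → x ∈ L) : L = ⊤ := by
  let G := W ⋊[A.subtype] A
  have : Finite G := Finite.of_equiv _ SemidirectProduct.equivProd.symm
  let i : W →* G := SemidirectProduct.inl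
  let j : A →* G := SemidirectProduct.inr
  have hi : Function.Injective i := SemidirectProduct.inl_injective
  have hj : Function.Injective j := SemidirectProduct.inr_injective
  have hc : ∀ (f : A) (x : W), j f * i x * (j f)⁻¹ = i (f.1 x) := fun f x => by
    rw [← map_inv]; exact (SemidirectProduct.inl_aut f x).symm
  have : IsMulCommutative j.range := ⟨⟨by
    rintro ⟨_, a, rfl⟩ ⟨_, b, rfl⟩
    exact Subtype.ext (by
      simp only [coe_mul, ← map_mul, show a * b = b * a from Subtype.ext (hab a a.2 b b.2)])⟩⟩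
  have h1 := S0058.result j.range ((⊤ : Subgroup W).map i)
    (fun a => hnc ((MonoidHom.ofInjective hj).isCyclic.2 a))
    (by
      rintro _ ⟨f, rfl⟩
      rw [mem_normalizer_iff]
      intro y
      constructor
      · rintro ⟨x, hx, rfl⟩
        exact ⟨_, mem_top _, (hc f x).symm⟩
      · rintro ⟨x, hx, e⟩
        refine ⟨(f⁻¹).1 x, mem_top _, ?_⟩
        rw [← hc, e, map_inv]; simp [mul_assoc])
    (by
      rw [← Nat.card_congr (MonoidHom.ofInjective hj).toEquiv, card_map_of_injective hi]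
      exact hcop.coprime_dvd_right (card_subgroup_dvd_card ⊤))
  rw [eq_top_iff, ← map_le_map_iff_of_injective hi, ← h1]
  refine iSup₂_le ?_
  rintro _ ⟨⟨f, rfl⟩, hf⟩ _ ⟨⟨x, hx, rfl⟩, hx2⟩
  refine mem_map_of_mem i (hL f f.2
    (fun e => hf (by rw [show f = 1 from Subtype.ext e, map_one])) x (hi ?_))
  rw [← hc, hx2 (j f) rfl, mul_inv_cancel_right]

/-- A nontrivial invariant elementary abelian subgroup. -/
theorem ex_elem {M : Type*} [Group M] [Finite M] {K : Subgroup M} (hK : K ≠ ⊥)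
    (ho : Odd (Nat.card K)) (W : Set M) (hW : ∀ s ∈ W, ∀ k ∈ K, s * k * s⁻¹ ∈ K) :
    ∃ (A : Subgroup M) (p : ℕ), p.Prime ∧ A ≠ ⊥ ∧ A ≤ K ∧ (∀ s ∈ W, ∀ k ∈ A, s * k * s⁻¹ ∈ A) ∧
      (∀ a ∈ A, ∀ b ∈ A, a * b = b * a) ∧ ∀ a ∈ A, a ^ p = 1 := by
  obtain ⟨A, ⟨h1, h2, h3⟩, hmin⟩ := exists_minimal_of_wellFoundedLT
    (fun A : Subgroup M => A ≠ ⊥ ∧ A ≤ K ∧ ∀ s ∈ W, ∀ k ∈ A, s * k * s⁻¹ ∈ A) ⟨K, hK, le_rfl, hW⟩
  have hs : Group.IsSolvable A := FT.solvable_of_odd (ho.of_dvd_nat (card_dvd_of_le h2))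
  have hlt : ⁅A, A⁆ < A := by
    have := (nontrivial_iff_ne_bot A).mpr h1
    have h4 := Group.IsSolvable.commutator_lt_top_of_nontrivial A
    rwa [← map_subtype_lt_map_subtype, map_subtype_commutator, ← MonoidHom.range_eq_map,
      range_subtype] at h4
  have hb : ⁅A, A⁆ = ⊥ := by
    by_contra hc
    refine hlt.not_ge (hmin ⟨hc, hlt.le.trans h2, fun s hs k hk => ?_⟩ hlt.le)
    have : A.map (MulAut.conj s).toMonoidHom ≤ A := by
      rintro _ ⟨a, ha, rfl⟩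
      exact h3 s hs a ha
    have h5 := mem_map_of_mem (MulAut.conj s).toMonoidHom hk
    rw [map_commutator] at h5
    exact commutator_mono this this h5
  have hab : ∀ a ∈ A, ∀ b ∈ A, a * b = b * a := fun a ha b hb' =>
    (commutator_eq_bot_iff_le_centralizer.mp hb hb' a ha)
  obtain ⟨p, hp, hd⟩ := Nat.exists_prime_and_dvd (mt card_eq_one.mp h1)
  have := Fact.mk hp
  obtain ⟨a, ha⟩ := exists_prime_orderOf_dvd_card' p hd
  let B : Subgroup M :=
    { carrier := {b | b ∈ A ∧ b ^ p = 1}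
      one_mem' := ⟨A.one_mem, one_pow p⟩
      mul_mem' := fun {a b} ha hb => ⟨mul_mem ha.1 hb.1, by
        rw [(show Commute a b from hab a ha.1 b hb.1).mul_pow, ha.2, hb.2, one_mul]⟩
      inv_mem' := fun {a} ha => ⟨inv_mem ha.1, by rw [inv_pow, ha.2, inv_one]⟩ }
  have hB : A ≤ B := hmin (y := B) ⟨fun e => ?_, fun b hb => h2 hb.1, fun s hs k hk =>
    ⟨h3 s hs k hk.1, by rw [conj_pow, hk.2]; simp⟩⟩ fun b hb => hb.1
  · exact ⟨A, p, hp, h1, h2, h3, hab, fun a ha => (hB ha).2⟩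
  · have : (a : M) ∈ B := ⟨a.2, by rw [← ha, ← coe_pow, pow_orderOf_eq_one, coe_one]⟩
    rw [e, mem_bot, OneMemClass.coe_eq_one] at this
    rw [this, orderOf_one] at ha
    exact hp.one_lt.ne ha

end Cfsg.Agent.H15D
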