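import Cfsg.Agent.H15D.F

/-! Dade's extension theorem, part G: the induction. -/

set_option autoImplicit false
set_option linter.unusedSectionVars false

namespace Cfsg.Agent.H15D

open Subgroup

theorem cyc_quot {M : Type*} [Group M] [Finite M] {a : M} {p : ℕ} (hp : p.Prime)
    (ha : orderOf a = p) {S : Subgroup M} (hS : ∀ s ∈ S, ∀ k ∈ zpowers a, s * k * s⁻¹ ∈ zpowers a) :
    ∃ s ∈ S, ∀ g ∈ S, ∃ i : ℕ, g * (s ^ i)⁻¹ * a = a * (g * (s ^ i)⁻¹) := by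
  have hle : S ≤ normalizer (zpowers a : Set M) := fun s hs => mem_normalizer_iff.mpr fun k =>
    ⟨hS s hs k, fun hk => by simpa [mul_assoc] using hS _ (inv_mem hs) _ hk⟩
  let f : S →* MulAut (zpowers a) := (normalizerMonoidHom (zpowers a)).comp (inclusion hle)
  have : IsCyclic (MulAut (zpowers a)) := by
    have := ZMod.isCyclic_units_prime hp
    rw [← ha, ← Nat.card_zpowers] at this
    exact (IsCyclic.mulAutMulEquiv (zpowers a)).isCyclic.mpr this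
  obtain ⟨⟨_, s, rfl⟩, hs⟩ := IsCyclic.exists_monoid_generator (α := f.range)
  refine ⟨s, s.2, fun g hg => ?_⟩
  obtain ⟨i, hi⟩ := hs ⟨_, ⟨g, hg⟩, rfl⟩
  refine ⟨i, ?_⟩
  have h1 : f (⟨g, hg⟩ * (s ^ i)⁻¹) = 1 := by
    rw [map_mul, map_inv, map_pow, mul_inv_eq_one]
    exact (congrArg Subtype.val hi).symm
  have h2 := congrArg (fun φ : MulAut (zpowers a) => (φ ⟨a, mem_zpowers a⟩ : M)) h1
  exact mul_inv_eq_iff_eq_mul.mp h2

theorem idx2 {M : Type*} [Group M] [Finite M] {S R : Subgroup M} (h2 : IsPGroup 2 S)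
    (hR : ¬ S ≤ R) : ∃ N ≤ S, R ⊓ S ≤ N ∧ (∃ s ∈ S, s ∉ N) ∧
      ∀ a ∈ S, ∀ b ∈ S, (a * b ∈ N ↔ (a ∈ N ↔ b ∈ N)) := by
  have : Fact (Nat.Prime 2) := ⟨Nat.prime_two⟩
  obtain ⟨n, hn⟩ := IsPGroup.iff_card.mp h2
  obtain ⟨m, hm⟩ := IsPGroup.iff_card.mp (h2.to_subgroup (R.subgroupOf S))
  have hlt : m < n := by
    by_contra hc
    refine hR (subgroupOf_eq_top.mp (eq_top_of_le_card _ ?_))
    rw [hn, hm]
    exact Nat.pow_le_pow_right two_pos (not_lt.mp hc)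
  obtain ⟨n, rfl⟩ := Nat.exists_eq_add_one_of_ne_zero (by omega : n ≠ 0)
  obtain ⟨N, hN, hle⟩ := Sylow.exists_subgroup_card_pow_prime_le 2 (G := S) (m := n)
    (hn ▸ pow_dvd_pow 2 n.le_succ) _ hm (by omega)
  have hi : N.index = 2 := by
    have := N.card_mul_index
    rw [hN, hn, pow_succ] at this
    exact Nat.eq_of_mul_eq_mul_left (by positivity) this
  have hm' : ∀ a : S, (a : M) ∈ N.map S.subtype ↔ a ∈ N := fun a =>
    mem_map_iff_mem S.subtype_injective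
  refine ⟨N.map S.subtype, map_subtype_le N, fun x hx => (hm' ⟨x, hx.2⟩).mpr (hle hx.1), ?_,
    fun a ha b hb => ?_⟩
  · obtain ⟨s, hs⟩ : ∃ s, s ∉ N := by
      by_contra hc
      push Not at hc
      rw [eq_top_iff'  N |>.mpr hc, index_top] at hi
      omega
    exact ⟨s, s.2, fun e => hs ((hm' s).mp e)⟩
  · exact (hm' (⟨a, ha⟩ * ⟨b, hb⟩)).trans ((mul_mem_iff_of_index_two hi).trans
      (iff_congr (hm' ⟨a, ha⟩).symm (hm' ⟨b, hb⟩).symm))

variable {E : Type*} [Group E] {z : E}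

theorem fx_ne_top {B : Subgroup (MulAut E)} (hB : B ≠ ⊥) : Fx B ≠ ⊤ := fun e =>
  hB (eq_bot_iff.mpr fun b hb => MulEquiv.ext fun x => (e ▸ mem_top x : x ∈ Fx B) b hb)

theorem fx_inv {B : Subgroup (MulAut E)} {φ : MulAut E} (hφ : ∀ b ∈ B, φ⁻¹ * b * φ⁻¹⁻¹ ∈ B) :
    ∀ x ∈ Fx B, φ x ∈ Fx B := fun x hx b hb => by
  simpa using congrArg φ (hx _ (hφ b hb))

namespace XS

variable (h : XS z)
include h

theorem cz_iff (φ : MulAut E) {x : E} (hx : φ x = 1 ∨ φ x = z) : x = 1 ∨ x = z :=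
  hx.imp (fun e => φ.injective (by rw [e, map_one])) fun e => φ.injective (by rw [e, h.fixz])

theorem cyc_case [Finite E] {A S : Subgroup (MulAut E)} {p : ℕ} (hp : p.Prime) (hp2 : p ≠ 2)
    (hA : A ≠ ⊥) (hn : ∀ s ∈ S, ∀ k ∈ A, s * k * s⁻¹ ∈ A) (hab : ∀ a ∈ A, ∀ b ∈ A, a * b = b * a)
    (hAp : ∀ a ∈ A, a ^ p = 1) (h2 : IsPGroup 2 S) {x : E} (hx : ¬ (x = 1 ∨ x = z))
    (hf : ∀ a ∈ A, a ≠ 1 → ∀ x, a x = x → x = 1 ∨ x = z) : Ext z S := by
  have := Fact.mk hp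
  have : Fact (Nat.Prime 2) := ⟨Nat.prime_two⟩
  have hpA : IsPGroup p A := fun a => ⟨1, Subtype.ext (by simpa using hAp a a.2)⟩
  have hc : IsCyclic A := by
    by_contra hc
    have := gen_fix hab hc (IsPGroup.coprime_card_of_ne p 2 hp2 A ⊤ hpA (h.isPGroup.to_subgroup ⊤) |>
      fun e => by simpa using e) (L := zpowers z)
      fun e he h1 x hx => (H10.mem_zpowers_two h.ord).mpr (hf e he h1 x hx)
    exact hx ((H10.mem_zpowers_two h.ord).mp (this ▸ mem_top x))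
  obtain ⟨a, rfl⟩ := (Subgroup.isCyclic_iff_exists_zpowers_eq_top A).mp hc
  have ha1 : a ≠ 1 := fun e => hA (by rw [e, zpowers_one_eq_bot])
  have ha := hAp a (mem_zpowers a)
  have hao : orderOf a = p := orderOf_eq_prime ha ha1
  obtain ⟨s, hs, hS⟩ := cyc_quot hp hao hn
  obtain ⟨n, hn2⟩ := IsPGroup.iff_card.mp h2
  obtain ⟨k, hk⟩ : ∃ k : ℕ, a ^ k = s⁻¹ * a * s := by
    simpa [Submonoid.mem_powers_iff] using
      mem_powers_iff_mem_zpowers.mpr (hn _ (inv_mem hs) a (mem_zpowers a))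
  obtain ⟨q, rfl⟩ := Nat.exists_eq_add_one_of_ne_zero hp.ne_zero
  have hd : ∀ j, ¬ q + 1 ∣ j → a ^ j ≠ 1 := fun j hj e =>
    hj (hao ▸ orderOf_dvd_of_pow_eq_one e)
  refine fpf_ext h (not_or.mp hx).1 (not_or.mp hx).2 hp (hp.odd_of_ne_two hp2) ha
    (fun j hj => hf _ (pow_mem (mem_zpowers a) j) (hd j hj)) (N := S ⊓ centralizer {a}) (n := n)
    (s := s) (k := k) (fun c hc => ?_) (fun c hc => mem_centralizer_singleton_iff.mp hc.2)
    (fun c hc => ⟨S.mul_mem (S.mul_mem hs hc.1) (S.inv_mem hs), mem_centralizer_singleton_iff.mpr ?_⟩)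
    (fun g hg => ?_) (fun hd => ha1 ?_) hk.symm
  · exact congrArg Subtype.val (hn2 ▸ pow_card_eq_one' (x := (⟨c, hc.1⟩ : S)))
  · have e := ((show Commute c a from mem_centralizer_singleton_iff.mp hc.2).pow_right k).eq
    rw [hk] at e
    calc _ = s * (c * (s⁻¹ * a * s)) * s⁻¹ := by group
      _ = _ := by rw [e]; group
  · obtain ⟨i, hi⟩ := hS g hg
    exact ⟨_, ⟨S.mul_mem hg (S.inv_mem (S.pow_mem hs i)), mem_centralizer_singleton_iff.mpr hi⟩, i,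
      by simp⟩
  · rw [orderOf_dvd_iff_pow_eq_one.mp (hao ▸ hd)] at hk
    calc a = s * (s⁻¹ * a * s) * s⁻¹ := by group
      _ = 1 := by rw [← hk]; simp

theorem orb_case [Finite E]
    (ih : ∀ (D : Subgroup E) (hz : z ∈ D), D ≠ ⊤ → ND z D → QQ (⟨z, hz⟩ : D))
    {A B S : Subgroup (MulAut E)} {p : ℕ} (hp : p.Prime) (hp2 : p ≠ 2) (ho : Odd (Nat.card A))
    (hn : ∀ s ∈ S, ∀ k ∈ A, s * k * s⁻¹ ∈ A) (hab : ∀ a ∈ A, ∀ b ∈ A, a * b = b * a)
    (hAp : ∀ a ∈ A, a ^ p = 1) (h2 : IsPGroup 2 S) (hf : ∀ x ∈ Fx A, x = 1 ∨ x = z)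
    (hB : B ≠ ⊥) (hBA : B ≤ A) {x : E} (hxB : x ∈ Fx B) (hx : ¬ (x = 1 ∨ x = z))
    (hmax : ∀ B' ≤ A, B ≤ B' → (∃ w ∈ Fx B', ¬ (w = 1 ∨ w = z)) → B' ≤ B) : Ext z S := by
  have := Fact.mk hp
  have hpB : IsPGroup p B := fun a => ⟨1, Subtype.ext (by simpa using hAp a (hBA a.2))⟩
  let F : MulAut E → Subgroup E := fun u => (Fx B).comap (u⁻¹).toMonoidHom
  have hF : ∀ u x, x ∈ F u ↔ u⁻¹ x ∈ Fx B := fun u x => Iff.rfl
  have hFz : ∀ u, z ∈ F u := fun u => (hF u z).mpr (by rw [h.fixz]; exact h.z_mem B)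
  have hFA : ∀ u ∈ S, ∀ a ∈ A, ∀ x ∈ F u, a x ∈ F u := fun u hu a ha x hx => by
    have h1 := hn _ (inv_mem hu) a ha
    simpa [hF] using fx_inv (φ := u⁻¹ * a * u⁻¹⁻¹) (fun b hb => by
      rwa [inv_inv (_ * _), mul_assoc, ← hab _ h1 b (hBA hb), inv_mul_cancel_left]) _ ((hF u x).mp hx)
  have hFS : ∀ g u, ∀ x ∈ F u, g x ∈ F (g * u) := fun g u x hx => by simpa [hF] using hx
  have hFN : ∀ u, ND z (F u) := fun u x hx hy => h.cz_iff u⁻¹
    (h.nd_fx hp2 hpB _ hx fun w hw => by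
      simpa using congrArg (u⁻¹ : MulAut E) (hy (u w) (by simpa [hF] using hw)))
  have d0 : ∀ u ∈ S, u ∉ St (Fx B) → ∀ x ∈ Fx B, ∀ y ∈ F u, x * y = y * x := by
    intro u hu hu' x hx y hy
    by_contra hc
    obtain ⟨w, hw1, hw2, hw3⟩ := h.norm hp2 hpB (fun b hb => hFA u hu b (hBA hb)) hx hy hc
    have h1 := le_sup_right.trans (hmax (B ⊔ B.map (MulAut.conj u).toMonoidHom)
      (sup_le hBA (by rintro _ ⟨b, hb, rfl⟩; exact hn u hu b (hBA hb))) le_sup_left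
      ⟨w, (sup_le hw2 (by
        rintro _ ⟨b, hb, rfl⟩
        simpa using congrArg u (hw1 b hb)) : _ ≤ MulAction.stabilizer (MulAut E) w),
        fun e => hw3 (h.cz e x).symm⟩)
    have h3 := eq_of_le_of_card_ge h1 (card_map_of_injective (MulAut.conj u).injective).ge
    refine hu' fun v => ⟨fun hv => ?_, fx_inv (fun b hb => ?_) v⟩
    · simpa using fx_inv (φ := u⁻¹) (fun b hb => by simpa using h1 ⟨b, hb, rfl⟩) _ hv
    · rw [← h3] at hb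
      obtain ⟨b, hb, rfl⟩ := hb
      simpa [mul_assoc] using hb
  have d1 : ∀ u ∈ S, ∀ v ∈ S, u⁻¹ * v ∉ St (Fx B) → ∀ x ∈ F u, ∀ y ∈ F v, x * y = y * x :=
    fun u hu v hv hh x hx y hy => by
      simpa using congrArg u (d0 _ (mul_mem (inv_mem hu) hv) hh _ hx _ (hFS u⁻¹ v y hy))
  have d2 : ∀ u v, u⁻¹ * v ∈ St (Fx B) → F u ≤ F v := fun u v hh x hx => by
    simpa [hF] using (inv_mem hh (u⁻¹ x)).mpr hx
  let D : Set (MulAut E) → Subgroup E := fun W => ⨆ u ∈ W, F u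
  have hD : ∀ W : Set (MulAut E), ∀ u ∈ W, F u ≤ D W := fun W u hu => le_iSup₂_of_le u hu le_rfl
  have hDi : ∀ (W W' : Set (MulAut E)) (φ : MulAut E),
      (∀ u ∈ W, ∃ v ∈ W', ∀ x ∈ F u, φ x ∈ F v) → ∀ x ∈ D W, φ x ∈ D W' :=
    fun W W' φ hh => (iSup₂_le fun u hu x hx => by
      obtain ⟨v, hv, hv'⟩ := hh u hu
      exact hD W' v hv (hv' x hx) : D W ≤ (D W').comap φ.toMonoidHom)
  have hDc : ∀ (R : Subgroup E) (W : Set (MulAut E)),
      (∀ u ∈ W, ∀ x ∈ R, ∀ y ∈ F u, x * y = y * x) → ∀ x ∈ R, ∀ y ∈ D W, x * y = y * x :=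
    fun R W hh x hx y hy => (iSup₂_le fun u hu y hy x hx => hh u hu x hx y hy :
      D W ≤ centralizer (R : Set E)) hy x hx
  have hDN : ∀ W : Set (MulAut E), W ⊆ S → ND z (D W) := fun W => by
    induction W, W.toFinite using Set.Finite.induction_on with
    | empty => exact fun _ x hx _ => Or.inl (by simpa [D] using hx)
    | @insert u W _ _ ih' =>
      intro hW
      rw [Set.insert_subset_iff] at hW
      have e : D (insert u W) = F u ⊔ D W := iSup_insert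
      rw [e]
      by_cases hc : ∃ v ∈ W, u⁻¹ * v ∈ St (Fx B)
      · obtain ⟨v, hv, hv'⟩ := hc
        rw [sup_eq_right.mpr ((d2 u v hv').trans (hD W v hv))]
        exact ih' hW.2
      · push Not at hc
        exact h.nd_sup (hFz u) (hFN u) (ih' hW.2)
          (hDc _ _ fun v hv => d1 u hW.1 v (hW.2 hv) (hc v hv))
  have hx1 : x ∈ F 1 := by simpa [hF] using hxB
  by_cases hT : D S = ⊤
  swap
  · exact h.split ih hn ho h2 hf (hD S 1 S.one_mem (hFz 1)) (hDN S subset_rfl) hT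
      (hD S 1 S.one_mem hx1) hx (fun a ha => hDi _ _ a fun u hu => ⟨u, hu, hFA u hu a ha⟩)
      fun g hg => hDi _ _ g fun u hu => ⟨g * u, mul_mem hg hu, hFS g u⟩
  obtain ⟨N, hNS, hN0, ⟨s, hs, hsN⟩, hm⟩ := idx2 (R := St (Fx B)) h2 fun hle =>
    fx_ne_top hB (eq_top_iff.mpr (hT ▸ iSup₂_le fun u hu y hy => by
      simpa [hF] using d2 u 1 (by simpa using inv_mem (hle hu)) hy))
  obtain ⟨V, hV⟩ : ∃ V : Set (MulAut E), ∀ u, u ∈ V ↔ u ∈ S ∧ u ∉ N := ⟨_, fun _ => Iff.rfl⟩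
  have hsN' : s⁻¹ ∉ N := fun e => hsN (inv_mem_iff.mp e)
  have hz₁ : z ∈ D N := hD N 1 N.one_mem (hFz 1)
  have hc : ∀ a ∈ D N, ∀ b ∈ D V, a * b = b * a := hDc _ _ fun v hv x hx y hy =>
    (hDc _ _ (fun u hu y hy x hx => (d1 u (hNS hu) v ((hV v).mp hv).1 (fun e => ((hV v).mp hv).2
      ((mul_mem_cancel_left (inv_mem hu)).mp
        (hN0 ⟨e, S.mul_mem (S.inv_mem (hNS hu)) ((hV v).mp hv).1⟩)))
        x hx y hy).symm) y hy x hx).symm
  have hNi : ∀ c ∈ N, ∀ x ∈ D N, c x ∈ D N := fun g hg =>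
    hDi _ _ g fun u hu => ⟨g * u, mul_mem hg hu, hFS g u⟩
  have hcj : ∀ t ∈ S, t ∉ N → ∀ c ∈ N, t * c * t⁻¹ ∈ N := fun t ht ht' c hc =>
    (hm _ (mul_mem ht (hNS hc)) _ (inv_mem ht)).mpr (by
      simp only [mul_mem_cancel_right hc, inv_mem_iff])
  refine swap_ext h hz₁ hc (fun y => h.fact hz₁ ?_) (s := s) (fun y => ⟨?_, fun hy => ?_⟩) hNi
    ((hm s hs s hs).mpr Iff.rfl) (hcj s hs hsN) (by simpa using hcj _ (inv_mem hs) hsN')
    (fun g hg => ?_) (rext (ih _ hz₁ (fun e => ?_) (hDN N hNS))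
      (fun a ha => hDi _ _ a fun u hu => ⟨u, hu, hFA u (hNS hu) a ha⟩) hNi
      (fun c hc => hn c (hNS hc)) ho (h2.to_le hNS) fun x _ => hf x)
  · have hle : D S ≤ D N ⊔ D V := iSup₂_le fun u hu => by
      by_cases e : u ∈ N
      · exact le_sup_of_le_left (hD N u e)
      · exact le_sup_of_le_right (hD V u ((hV u).mpr ⟨hu, e⟩))
    exact hle (hT.ge (mem_top y))
  · exact hDi _ _ s⁻¹ (fun u hu => ⟨s⁻¹ * u, (hm _ (inv_mem hs) u ((hV u).mp hu).1).mpr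
      (iff_of_false hsN' ((hV u).mp hu).2), hFS _ u⟩) y
  · simpa using hDi _ V s (fun u hu => ⟨s * u, (hV _).mpr ⟨mul_mem hs (hNS hu),
      fun e => hsN ((mul_mem_cancel_right hu).mp e)⟩, hFS _ u⟩) _ hy
  · by_cases e : g ∈ N
    · exact Or.inl e
    · exact Or.inr ((hm g hg _ (inv_mem hs)).mpr (iff_of_false e hsN'))
  · exact hx (h.cz_iff s (h.nd _ fun y => (hc y (e ▸ mem_top y) _
      (hD V s ((hV s).mpr ⟨hs, hsN⟩) (by simpa using hFS s 1 x hx1))).symm))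

theorem step [Finite E]
    (ih : ∀ (D : Subgroup E) (hz : z ∈ D), D ≠ ⊤ → ND z D → QQ (⟨z, hz⟩ : D)) : QQ z := by
  intro K S hn ho h2 hf
  have hfix : ∀ (a : MulAut E) x, x = 1 ∨ x = z → a x = x := by
    rintro a x (rfl | rfl)
    · exact map_one a
    · exact h.fixz a
  by_cases hK : K = ⊥
  · obtain ⟨d, θ, hs⟩ := exists_sr h
    refine ⟨_, _, _, θ, fun _ => 1, hs, rfl, by simp, fun a _ x => ?_⟩
    rw [hfix a x (hf x fun b hb => by rw [hK, mem_bot] at hb; rw [hb]; rfl), one_mul, mul_one]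
  obtain ⟨A, p, hp, hA, hAK, hAn, hab, hAp⟩ := ex_elem hK ho ((S : Set _) ∪ K) (by
    rintro s (hs | hs) k hk
    · exact hn s hs k hk
    · exact mul_mem (mul_mem hs hk) (inv_mem hs))
  have := Fact.mk hp
  have hoA : Odd (Nat.card A) := ho.of_dvd_nat (card_dvd_of_le hAK)
  have hpA : IsPGroup p A := fun a => ⟨1, Subtype.ext (by simpa using hAp a a.2)⟩
  have hp2 : p ≠ 2 := by
    rintro rfl
    exact (hpA.card_eq_or_dvd).elim (mt card_eq_one.mp hA) hoA.not_two_dvd_nat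
  have hnA : ∀ s ∈ S, ∀ k ∈ A, s * k * s⁻¹ ∈ A := fun s hs => hAn s (Or.inl hs)
  by_cases hfA : ∀ x ∈ Fx A, x = 1 ∨ x = z
  swap
  · push Not at hfA
    obtain ⟨x, hx, hx'⟩ := hfA
    exact h.split ih hn ho h2 hf (h.z_mem A) (h.nd_fx hp2 hpA) (fx_ne_top hA) hx (not_or.mpr hx')
      (fun φ hφ => fx_inv (hAn _ (Or.inr (inv_mem hφ))))
      fun φ hφ => fx_inv (hAn _ (Or.inl (inv_mem hφ)))
  obtain ⟨x₀, hx₀⟩ : ∃ x, ¬ (x = 1 ∨ x = z) := by
    by_contra hc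
    exact fx_ne_top hA (eq_top_iff.mpr fun x _ a _ => hfix a x (not_not.mp fun e => hc ⟨x, e⟩))
  obtain ⟨B, ⟨hBA, x, hxB, hx⟩, hmax⟩ := exists_maximal_of_wellFoundedGT
    (fun B : Subgroup (MulAut E) => B ≤ A ∧ ∃ w ∈ Fx B, ¬ (w = 1 ∨ w = z))
    ⟨⊥, bot_le, x₀, fun b hb => by rw [mem_bot.mp hb]; rfl, hx₀⟩
  by_cases hB : B = ⊥
  · subst hB
    refine h.cyc_case hp hp2 hA hnA hab hAp h2 hx fun a ha h1 y hy => ?_
    by_contra hc
    exact h1 (hmax (y := zpowers a) ⟨zpowers_le.mpr ha, y,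
      (zpowers_le.mpr hy : _ ≤ MulAction.stabilizer (MulAut E) y), hc⟩ bot_le (mem_zpowers a))
  · exact h.orb_case ih hp hp2 hoA hnA hab hAp h2 hfA hB hBA hxB hx
      fun B' h1 h2 h3 => hmax ⟨h1, h3⟩ h2

end XS

universe u

theorem qq (n : ℕ) : ∀ (E : Type u) [Group E] [Finite E] (z : E), Nat.card E = n → XS z → QQ z := by
  induction n using Nat.strong_induction_on with
  | _ n ih =>
    intro E _ _ z hn h
    refine h.step fun D hz hD hD' => ih _ ?_ D _ rfl (h.sub hz hD')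
    rw [← hn]
    exact lt_of_not_ge fun e => hD (eq_top_of_le_card D e)

end Cfsg.Agent.H15D
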