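import Cfsg.Agent.H15D.G
import Cfsg.Agent.H10.Xsp2

/-! Dade's extension theorem. -/

set_option autoImplicit false
set_option linter.unusedSectionVars false

namespace Cfsg.Agent.H15D

open Subgroup
open scoped commutatorElement

theorem SR.tr_eq {E : Type*} [Group E] [Finite E] {z : E} (h : XS z) {ι κ : Type} [Fintype ι]
    [DecidableEq ι] [Fintype κ] [DecidableEq κ] {θ : E →* Matrix ι ι ℂ} {θ' : E →* Matrix κ κ ℂ}
    (hs : SR z θ) (hs' : SR z θ') (x : E) : (θ x).trace = (θ' x).trace := by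
  have := Fintype.ofFinite E
  have e : Fintype.card ι = Fintype.card κ := by
    have h1 := (hs.card_eq h).symm.trans (hs'.card_eq h)
    have h2 : 2 * Fintype.card ι ^ 2 = 2 * Fintype.card κ ^ 2 := by exact_mod_cast h1
    exact Nat.pow_left_injective two_ne_zero (Nat.eq_of_mul_eq_mul_left two_pos h2)
  by_cases h1 : x = 1
  · simp [h1, e]
  by_cases h2 : x = z
  · simp [h2, hs.hz, hs'.hz, e]
  rw [tr0 h hs.hz h1 h2, tr0 h hs'.hz h1 h2]

theorem dade {G : Type*} [Group G] [Finite G] (E H : Subgroup G) [E.Normal]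
    (hE : Cfsg.IsExtraspecial 2 ↥E) (hEH : E ⊓ H = ⊥) (hEHtop : E ⊔ H = ⊤) (K : Subgroup G)
    (hKn : ∀ h ∈ H, ∀ k ∈ K, h * k * h⁻¹ ∈ K) (hKodd : Odd (Nat.card ↥K)) (hEK : ⁅E, K⁆ = E)
    (θ : Cfsg.IrrCharacter ↥E) (hθ : ∀ e : ↥E, (θ : ↥E → ℂ) e = (θ : ↥E → ℂ) 1 → e = 1) :
    ∃ χ : Cfsg.IrrCharacter G, ∀ e : ↥E, (χ : G → ℂ) e = (θ : ↥E → ℂ) e := by
  have : Fact (Nat.Prime 2) := ⟨Nat.prime_two⟩
  obtain ⟨z, hx, -⟩ := H10.exists_xs hE
  have h : XS (⟨z, hx.mem⟩ : E) :=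
    { ne := fun e => hx.ne_one (congrArg Subtype.val e)
      sq := Subtype.ext hx.zz
      cen := fun x => Subtype.ext (hx.cent x x.2).symm
      comm := fun x y => (hx.mul_eq_or x.2 y.2).imp Subtype.ext Subtype.ext
      nd := fun x hc => (hx.mem_z.mp (hx.zc x x.2 fun q hq =>
        (congrArg Subtype.val (hc ⟨q, hq⟩)).symm)).imp Subtype.ext Subtype.ext }
  let α : G →* MulAut E := MulAut.conjNormal
  have hα : ∀ g (x : E), (α g x : G) = g * x * g⁻¹ := fun g x => rfl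
  let P : Sylow 2 (H.map α) := default
  obtain ⟨ι, _, _, θ', T₀, hs, hT₀⟩ := qq _ E _ rfl h (K.map α)
    ((P : Subgroup (H.map α)).map (H.map α).subtype)
    (by
      rintro _ ⟨⟨_, s, hs, rfl⟩, -, rfl⟩ _ ⟨k, hk, rfl⟩
      exact ⟨s * k * s⁻¹, hKn s hs k hk, by simp⟩)
    (hKodd.of_dvd_nat (card_map_dvd _ _)) (P.isPGroup'.map _) (fun x hx' => h.nd x fun y => by
      have h1 : ⁅E, K⁆ ≤ centralizer {(x : G)} := commutator_le.mpr fun e he k hk => by
        have h2 : k * x * k⁻¹ = x := congrArg Subtype.val (hx' _ ⟨k, hk, rfl⟩)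
        have h3 : k * e⁻¹ * k⁻¹ ∈ E := ‹E.Normal›.conj_mem _ (inv_mem he) k
        have e1 : ⁅e, k⁆ = e * (k * e⁻¹ * k⁻¹) := by rw [commutatorElement_def]; group
        rw [mem_centralizer_singleton_iff, e1, eq_comm, hx.comm_mul_iff x.2 he h3]
        have h4 : Commute (x : G) e ↔ Commute (k * x * k⁻¹) (k * e⁻¹ * k⁻¹) := by
          rw [Commute.conj_iff, Commute.inv_right_iff]
        rw [h2] at h4
        exact h4
      exact Subtype.ext (mem_centralizer_singleton_iff.mp (h1 (hEK.ge y.2))).symm)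
  obtain ⟨T, hT⟩ := transfer_ext h hs (L := H.map α) (by
    rw [relIndex, ← comap_subtype, comap_map_eq_self_of_injective (H.map α).subtype_injective]
    exact Nat.odd_iff.mpr (Nat.two_dvd_ne_zero.mp P.not_dvd_index)) hT₀
  have hdec : ∀ g : G, ∃ e : E, ∃ k ∈ H, g = e * k := fun g => by
    obtain ⟨e, he, k, hk, rfl⟩ := mem_sup_of_normal_left.mp (hEHtop.ge (mem_top g))
    exact ⟨⟨e, he⟩, k, hk, rfl⟩
  choose f g hg hfg using hdec
  have key : ∀ (e : E), ∀ k ∈ H, f (e * k) = e ∧ g (e * k) = k := fun e k hk => by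
    have h1 := hfg (e * k)
    have h2 : (f (e * k) : G)⁻¹ * e = g (e * k) * k⁻¹ := by
      rw [inv_mul_eq_iff_eq_mul, ← mul_assoc, ← h1, mul_inv_cancel_right]
    have h3 : (f (e * k) : G)⁻¹ * e ∈ E ⊓ H :=
      ⟨E.mul_mem (E.inv_mem (f _).2) e.2, h2 ▸ H.mul_mem (hg _) (H.inv_mem hk)⟩
    rw [hEH, mem_bot] at h3
    exact ⟨Subtype.ext (inv_mul_eq_one.mp h3), mul_inv_eq_one.mp (h2 ▸ h3)⟩
  have key1 : ∀ e : E, f e = e ∧ g e = 1 := fun e => by simpa using key e 1 H.one_mem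
  let ρ : G →* Matrix ι ι ℂ :=
    { toFun := fun x => θ' (f x) * T (α (g x))
      map_one' := by
        have := key1 1
        rw [OneMemClass.coe_one] at this
        simp [this.1, this.2, hT.one]
      map_mul' := fun x y => by
        have e : x * y = (f x * α (g x) (f y) : E) * (g x * g y) := by
          conv_lhs => rw [hfg x, hfg y]
          rw [coe_mul, hα]
          group
        obtain ⟨h1, h2⟩ := key (f x * α (g x) (f y)) _ (H.mul_mem (hg x) (hg y))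
        rw [e, h1, h2, map_mul, map_mul, hT.mul _ ⟨_, hg x, rfl⟩ _ ⟨_, hg y, rfl⟩, mul_assoc,
          mul_assoc, ← mul_assoc (T _), hT.it _ ⟨_, hg x, rfl⟩, mul_assoc] }
  let ρ' : Representation ℂ G (ι → ℂ) :=
    (Matrix.toLinAlgEquiv' : Matrix ι ι ℂ ≃ₐ[ℂ] _).toMonoidHom.comp ρ
  obtain ⟨_, n, σ, hσ, rfl⟩ := θ
  obtain ⟨θ₀, hs₀, htr⟩ := sr_of_irr h σ fun e => h.ne (hθ _ e)
  have hres : ∀ e : E, ρ'.character e = σ.character e := fun e => by
    rw [htr, ← hs.tr_eq h hs₀, ← Matrix.trace_toLin'_eq]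
    change LinearMap.trace _ _ (Matrix.toLin' (θ' (f e) * T (α (g e)))) = _
    rw [(key1 e).1, (key1 e).2, map_one, hT.one, mul_one]
  refine ⟨⟨ρ'.character, H4.Cfsg.IsCharacter.isIrr_of_comp (H4.isCharacter_character ρ') E.subtype ?_⟩, hres⟩
  rw [show (fun x => ρ'.character (E.subtype x)) = σ.character from funext hres]
  exact ⟨n, σ, hσ, rfl⟩

end Cfsg.Agent.H15D
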